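import Cfsg.Agent.SLComm.ChooseV

/-!
The reduction step of the commutator recursion for `SL_n` (owner: helper16).
-/

set_option autoImplicit false

namespace Cfsg.Agent.SLComm

open Module Submodule LinearMap

variable {F : Type*} [Field F] {V : Type*} [AddCommGroup V] [Module F V] [FiniteDimensional F V]

/-- `x ↦ N x - f (N x) (v + N v)`, whose restriction to `ker f` is the reduced map minus one. -/
def redN (N : V →ₗ[F] V) (v : V) (f : V →ₗ[F] F) : V →ₗ[F] V :=
  N - (f.comp N).smulRight (v + N v)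

omit [FiniteDimensional F V] in
theorem redN_apply (N : V →ₗ[F] V) (v : V) (f : V →ₗ[F] F) (x : V) :
    redN N v f x = N x - f (N x) • (v + N v) := rfl

theorem finrank_ker_eq_sub_one {f : V →ₗ[F] F} {v : V} (hfv : f v = 1) :
    finrank F (ker f) + 1 = finrank F V := by
  have h := f.finrank_range_add_finrank_ker
  have h1 : range f = ⊤ := range_eq_top.2 fun c => ⟨c • v, by simp [hfv]⟩
  rw [h1, finrank_top, finrank_self] at h
  omega

/-- The rank of the reduced map on `ker f`. -/
theorem rank_redN (N : V →ₗ[F] V) {v : V} {f : V →ₗ[F] F} (hfv : f v = 1) (hfw : f (N v) = 0) :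
    rk N ≤ finrank F ((ker f).map (redN N v f)) + 2 ∧
    (v ∉ range N → rk N ≤ finrank F ((ker f).map (redN N v f)) + 1 ∧
      (f ∉ (ker N).dualAnnihilator → rk N ≤ finrank F ((ker f).map (redN N v f)))) := by
  set g := (redN N v f).domRestrict (ker f)
  have hg := g.finrank_range_add_finrank_ker
  have hmap : range g = (ker f).map (redN N v f) := by
    ext y; simp [g, LinearMap.mem_range]
  rw [hmap] at hg
  have hW := finrank_ker_eq_sub_one hfv
  have hk := finrank_ker_add N
  have hAv : f (v + N v) = 1 := by rw [map_add, hfv, hfw, add_zero]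
  rw [← Submodule.finrank_map_subtype_eq (ker f) (ker g)] at hg
  refine ⟨?_, fun hv => ⟨?_, fun hf => ?_⟩⟩
  · have h1 : (ker g).map (ker f).subtype ≤ (span F {v + N v}).comap N := by
      rintro _ ⟨x, hx, rfl⟩
      rw [mem_comap, mem_span_singleton]
      refine ⟨f (N x), ?_⟩
      have hx' : redN N v f x = 0 := hx
      rw [redN_apply, sub_eq_zero] at hx'
      exact hx'.symm
    have := Submodule.finrank_mono h1
    have := finrank_preimage_span_le N (v + N v)
    omega
  all_goals
    have hsub : (ker g).map (ker f).subtype ≤ ker f ⊓ ker N := by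
      rintro _ ⟨x, hx, rfl⟩
      have hx' : redN N v f x = 0 := hx
      rw [redN_apply, sub_eq_zero] at hx'
      refine ⟨x.2, ?_⟩
      by_contra h0
      have hc : f (N (x : V)) ≠ 0 := fun h => h0 (by
        rw [SetLike.mem_coe, LinearMap.mem_ker, Submodule.subtype_apply, hx', h, zero_smul])
      refine hv ⟨(f (N (x : V)))⁻¹ • (x : V) - v, ?_⟩
      rw [map_sub, map_smul]
      nth_rewrite 2 [hx']
      rw [smul_smul, inv_mul_cancel₀ hc, one_smul, add_sub_cancel_right]
  · have := Submodule.finrank_mono (hsub.trans inf_le_right)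
    omega
  · have hlt : ker f ⊓ ker N < ker N := by
      refine lt_of_le_of_ne inf_le_right fun h => hf ?_
      rw [Submodule.mem_dualAnnihilator]
      intro x hx
      rw [← h] at hx
      exact hx.1
    have := Submodule.finrank_mono hsub
    have := Submodule.finrank_lt_finrank_of_lt hlt
    omega

/-- The reduced map is not a scalar. -/
theorem redN_not_scalar {n : ℕ} (N : V →ₗ[F] V) (hr : 2 ≤ rk N) (hns : ∀ a : F, N ≠ a • 1)
    {v : V} {f : V →ₗ[F] F} (hfv : f v = 1) (hfw : f (N v) = 0)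
    (hv0 : rk N ≤ 2 → v ∉ range N)
    (hT : ∀ μ, InT n N μ → v ∉ range (N - μ • 1))
    (hf : ∀ μ, InT n N μ → rk (N - μ • 1) ≤ 1 → f ∉ (ker (N - μ • 1)).dualAnnihilator)
    {μ : F} (hμ1 : μ ≠ -1) (hμ3 : n = 3 → (1 + μ) ^ 2 = 1) :
    ¬ ∀ x : V, f x = 0 → redN N v f x = μ • x := by
  intro h
  have hdec : ∀ x : V, f (x - f x • v) = 0 := fun x => by
    rw [map_sub, map_smul, hfv, smul_eq_mul, mul_one, sub_self]
  by_cases hμ0 : μ = 0
  · subst hμ0
    have h1 := (rank_redN N hfv hfw).1
    have h2 : (ker f).map (redN N v f) = ⊥ := by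
      rw [Submodule.eq_bot_iff]
      rintro _ ⟨x, hx, rfl⟩
      rw [h x hx, zero_smul]
    rw [h2, finrank_bot] at h1
    have h3 := ((rank_redN N hfv hfw).2 (hv0 (by omega))).1
    rw [h2, finrank_bot] at h3
    omega
  have hx : ∀ x, f x = 0 → (N - μ • 1) x = f (N x) • (v + N v) := fun x hx => by
    have := h x hx
    rw [redN_apply] at this
    rw [sub_smul_apply', ← this]
    abel
  have hs : rk (N - μ • 1) ≤ 2 := by
    refine (Submodule.finrank_mono (?_ : range (N - μ • 1) ≤
      span F {v + N v} ⊔ span F {(N - μ • 1) v})).trans ?_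
    · rintro _ ⟨x, rfl⟩
      have : x = (x - f x • v) + f x • v := by abel
      rw [this, map_add, map_smul, hx _ (hdec x)]
      exact add_mem (mem_sup_left (smul_mem _ _ (mem_span_singleton_self _)))
        (mem_sup_right (smul_mem _ _ (mem_span_singleton_self _)))
    · refine (finrank_sup_span_le _ _).trans ?_
      have : finrank F (span F ({v + N v} : Set V)) ≤ 1 := (finrank_span_le_card _).trans (by simp)
      omega
  have hin : InT n N μ := ⟨hμ0, hμ1, hs, hμ3⟩
  have hW : ∀ x, f x = 0 → x ∈ ker (N - μ • 1) := fun x hx0 => by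
    rw [LinearMap.mem_ker, hx x hx0]
    by_contra hne
    have hc : f (N x) ≠ 0 := fun e => hne (by rw [e, zero_smul])
    refine hT μ hin ?_
    have h1μ : 1 + μ ≠ 0 := fun e => hμ1 (eq_neg_of_add_eq_zero_right e)
    refine ⟨(1 + μ)⁻¹ • ((f (N x))⁻¹ • x - v), ?_⟩
    rw [map_smul, map_sub, map_smul, hx x hx0, smul_smul (f (N x))⁻¹, inv_mul_cancel₀ hc, one_smul,
      sub_smul_apply', show v + N v - (N v - μ • v) = (1 + μ) • v by module, smul_smul,
      inv_mul_cancel₀ h1μ, one_smul]
  have hle : ker f ≤ ker (N - μ • 1) := fun x hx0 => hW x hx0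
  have hne0 : rk (N - μ • 1) ≠ 0 := fun e => hns μ (sub_eq_zero.1 (rk_eq_zero e))
  have h1 := finrank_ker_eq_sub_one hfv
  have h2 := finrank_ker_add (N - μ • 1)
  have h3 := Submodule.finrank_mono hle
  have heq : ker f = ker (N - μ • 1) := Submodule.eq_of_le_of_finrank_le hle (by omega)
  refine hf μ hin (by omega) ?_
  rw [Submodule.mem_dualAnnihilator]
  intro x hx
  rw [← heq] at hx
  exact hx

variable [Fintype F] [Finite V]

theorem finrank_ann (S : Submodule F V) :
    finrank F S + finrank F S.dualAnnihilator = finrank F V :=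
  Subspace.finrank_add_finrank_dualAnnihilator_eq S

theorem span_notMem_of_not_eigen {N : V →ₗ[F] V} {v : V} (hv : ∀ ν : F, N v = ν • v → False) :
    v ∉ span F {N v} := by
  rw [mem_span_singleton]
  rintro ⟨c, hc⟩
  have hc0 : c ≠ 0 := by
    rintro rfl
    rw [zero_smul] at hc
    exact hv 0 (by rw [← hc, map_zero, smul_zero])
  exact hv c⁻¹ (by nth_rewrite 2 [← hc]; rw [smul_smul, inv_mul_cancel₀ hc0, one_smul])

omit [FiniteDimensional F V] [Fintype F] [Finite V] in
theorem card_comap_subtype {W : Type*} [AddCommGroup W] [Module F W] (s D : Submodule F W) :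
    Nat.card ↥(s.comap D.subtype) = Nat.card ↥(s ⊓ D) :=
  Nat.card_congr
    { toFun := fun x => ⟨x.1.1, ⟨x.2, x.1.2⟩⟩
      invFun := fun x => ⟨⟨x.1, x.2.2⟩, x.2.1⟩
      left_inv := fun _ => rfl
      right_inv := fun _ => rfl }

/-- Choice of a functional with value one at `v` on the annihilator of `S`, avoiding small subspaces. -/
theorem exists_fn {v : V} (S : Submodule F V) (hv : v ∉ S) (L : List (Submodule F (Dual F V)))
    (h : (L.map fun s : Submodule F (Dual F V) => Nat.card ↥(s ⊓ S.dualAnnihilator)).sum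
      < Nat.card ↥S.dualAnnihilator) :
    ∃ f : Dual F V, f v = 1 ∧ (∀ x ∈ S, f x = 0) ∧ ∀ s ∈ L, f ∉ s := by
  haveI : Finite ↥S.dualAnnihilator := Module.finite_of_finite F
  set D := S.dualAnnihilator
  set ev : ↥D →ₗ[F] F := (Dual.eval F V v).comp D.subtype
  have hev : ev ≠ 0 := by
    intro e
    refine hv ?_
    rw [← Subspace.dualAnnihilator_dualCoannihilator_eq (W := S), Submodule.mem_dualCoannihilator]
    intro g hg
    exact LinearMap.congr_fun e ⟨g, hg⟩
  set L' : List (Submodule F ↥D) := L.map (fun s : Submodule F (Dual F V) => Submodule.comap D.subtype s)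
    with hL'
  obtain ⟨g, hg1, hg⟩ := exists_avoid (F := F) (V := ↥D) (u := ev) hev L' (by
    rw [hL']
    rw [List.map_map]
    refine lt_of_eq_of_lt ?_ h
    congr 1
    refine List.map_congr_left fun s _ => ?_
    exact card_comap_subtype s D)
  refine ⟨g.1, hg1, fun x hx => (Submodule.mem_dualAnnihilator _).1 g.2 x hx, fun s hs hm => ?_⟩
  exact hg _ (hL' ▸ List.mem_map.2 ⟨s, hs, rfl⟩) hm

theorem sup_span_ann (S T : Submodule F V) :
    T.dualAnnihilator ⊓ S.dualAnnihilator = (T ⊔ S).dualAnnihilator :=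
  (Submodule.dualAnnihilator_sup_eq _ _).symm

set_option maxHeartbeats 1000000 in
/-- **The step.** -/
theorem exists_step {n : ℕ} (hn : finrank F V = n) (hn3 : 3 ≤ n) (hq : 4 ≤ Fintype.card F ∨ 4 ≤ n)
    (N : V →ₗ[F] V) (hinj : ∀ x, N x = -x → x = 0) (hr : 2 ≤ rk N) (hns : ∀ a : F, N ≠ a • 1)
    {u : V →ₗ[F] F} (hu : u ≠ 0) {l : V} (hl : l ≠ 0)
    (htwo : Fintype.card F = 2 → rk N = 2 → n = 4 ∧ N l = 0) :
    ∃ (v : V) (f : V →ₗ[F] F), f v = 1 ∧ f (N v) = 0 ∧ N v ≠ 0 ∧ u v ≠ 0 ∧ f l ≠ 0 ∧
      (5 ≤ n ∨ (n = 4 ∧ 4 ≤ Fintype.card F) → ∃ x, f x = 0 ∧ f (N x) ≠ 0) ∧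
      (∀ μ : F, μ ≠ -1 → (n = 3 → (1 + μ) ^ 2 = 1) → ¬ ∀ x, f x = 0 → redN N v f x = μ • x) ∧
      (4 ≤ n → 2 ≤ finrank F ((ker f).map (redN N v f))) ∧
      (Fintype.card F = 2 → 5 ≤ n → 3 ≤ finrank F ((ker f).map (redN N v f))) := by
  classical
  obtain ⟨v, huv, hvB, heig, hvR, hvT, hv2⟩ := exists_vec hn hn3 hq N hinj hr hns hu hl
  set q := Fintype.card F with hqdef
  have hq2 : 2 ≤ q := Fintype.one_lt_card
  have pw : ∀ a b : ℕ, a ≤ b → q ^ a ≤ q ^ b := fun a b h => Nat.pow_le_pow_right (by omega) h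
  have hrn : rk N ≤ n := hn ▸ Submodule.finrank_le _
  have hkN := finrank_ker_add N
  have hw0 : N v ≠ 0 := fun e => heig 0 (by rw [e, zero_smul])
  have hlw : l ∉ span F {N v} := fun h => by
    obtain ⟨c, hc⟩ := mem_span_singleton.1 h
    have hc0 : c ≠ 0 := by rintro rfl; exact hl (by rw [← hc, zero_smul])
    exact hvB (mem_comap.2 (mem_span_singleton.2
      ⟨c⁻¹, by rw [← hc, smul_smul, inv_mul_cancel₀ hc0, one_smul]⟩))
  have hvw := span_notMem_of_not_eigen heig
  haveI : Finite (Dual F V) := Module.finite_of_finite F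
  have cD : ∀ (S : Submodule F V) (d : ℕ), n ≤ d + finrank F S →
      Nat.card ↥S.dualAnnihilator ≤ q ^ d := fun S d h =>
    card_submodule_le (by have := finrank_ann S; omega)
  have rank_facts : ∀ f : V →ₗ[F] F, f v = 1 → f (N v) = 0 →
      (rk N = 2 → 4 ≤ n → f ∉ (ker N).dualAnnihilator) →
      (q = 2 → rk N = 3 → 5 ≤ n → f ∉ (ker N).dualAnnihilator) →
      (4 ≤ n → 2 ≤ finrank F ((ker f).map (redN N v f))) ∧
      (q = 2 → 5 ≤ n → 3 ≤ finrank F ((ker f).map (redN N v f))) := by
    intro f hfv hfw hC2 hC3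
    obtain ⟨g1, g2⟩ := rank_redN N hfv hfw
    constructor
    · intro h4
      by_cases h : rk N ≤ 3
      · obtain ⟨g3, g4⟩ := g2 (hvR (by omega))
        by_cases h2 : rk N = 2
        · have := g4 (hC2 h2 h4); omega
        · omega
      · omega
    · intro hq' h5
      have : rk N ≠ 2 := fun h => by have := (htwo hq' h).1; omega
      by_cases h : rk N ≤ 4
      · obtain ⟨g3, g4⟩ := g2 (hvR (by omega))
        by_cases h3 : rk N = 3
        · have := g4 (hC3 hq' h3 h5); omega
        · omega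
      · omega
  by_cases hq3 : q = 2
  · -- the field with two elements: ask for `f l = f v = 1`
    have hn4 : 4 ≤ n := by omega
    have hT : ∀ μ, InT n N μ → False := fun μ h => by
      have : ({0, -1, μ} : Finset F).card ≤ q := Finset.card_le_univ _
      rw [Finset.card_eq_three.2 ⟨0, -1, μ, by simp, Ne.symm h.1, Ne.symm h.2.1, rfl⟩] at this
      omega
    set S := span F {N v} ⊔ span F {l - v} with hS
    have hvS : v ∉ S := by
      intro h
      obtain ⟨a, ha, b, hb, hab⟩ := mem_sup.1 h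
      obtain ⟨c, rfl⟩ := mem_span_singleton.1 ha
      obtain ⟨d, rfl⟩ := mem_span_singleton.1 hb
      by_cases hd : d = 0
      · subst hd
        rw [zero_smul, add_zero] at hab
        exact hvw (mem_span_singleton.2 ⟨c, hab⟩)
      have : d = 1 := by
        by_contra h1
        have : ({0, 1, d} : Finset F).card ≤ q := Finset.card_le_univ _
        rw [Finset.card_eq_three.2 ⟨0, 1, d, zero_ne_one, Ne.symm hd, Ne.symm h1, rfl⟩] at this
        omega
      subst this
      refine hlw (mem_span_singleton.2 ⟨-c, ?_⟩)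
      have h2 : ∀ x : V, x + x = 0 := fun x => by
        have h11 : (1 : F) + 1 = 0 := by
          by_contra h1
          have : ({0, 1, 1 + 1} : Finset F).card ≤ q := Finset.card_le_univ _
          rw [Finset.card_eq_three.2 ⟨0, 1, 1 + 1, zero_ne_one, Ne.symm h1,
            fun e => one_ne_zero (left_eq_add.1 e), rfl⟩] at this
          omega
        calc x + x = ((1 : F) + 1) • x := by rw [add_smul, one_smul]
          _ = 0 := by rw [h11, zero_smul]
      have h3 : l = v + v - c • N v := by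
        rw [one_smul] at hab
        linear_combination (norm := module) hab
      rw [h3, h2, zero_sub, neg_smul]
    have hSle : finrank F S ≤ 2 := (finrank_sup_span_le _ _).trans (by
      have : finrank F (span F ({N v} : Set V)) ≤ 1 := (finrank_span_le_card _).trans (by simp)
      omega)
    have cS : q ^ (n - 2) ≤ Nat.card ↥S.dualAnnihilator := by
      have := finrank_ann S
      rw [Module.natCard_eq_pow_finrank (K := F) (V := ↥S.dualAnnihilator), Nat.card_eq_fintype_card]
      exact pw _ _ (by omega)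
    have goal : ∀ f : V →ₗ[F] F, f v = 1 → (∀ x ∈ S, f x = 0) →
        (5 ≤ n → f ∉ (range N).dualAnnihilator) → (rk N = 3 → 5 ≤ n → f ∉ (ker N).dualAnnihilator) →
        ∃ (v : V) (f : V →ₗ[F] F), f v = 1 ∧ f (N v) = 0 ∧ N v ≠ 0 ∧ u v ≠ 0 ∧ f l ≠ 0 ∧
          (5 ≤ n ∨ (n = 4 ∧ 4 ≤ q) → ∃ x, f x = 0 ∧ f (N x) ≠ 0) ∧
          (∀ μ : F, μ ≠ -1 → (n = 3 → (1 + μ) ^ 2 = 1) → ¬ ∀ x, f x = 0 → redN N v f x = μ • x) ∧
          (4 ≤ n → 2 ≤ finrank F ((ker f).map (redN N v f))) ∧
          (q = 2 → 5 ≤ n → 3 ≤ finrank F ((ker f).map (redN N v f))) := by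
      intro f hfv hfS hZ hC
      have hfw : f (N v) = 0 := hfS _ (mem_sup_left (mem_span_singleton_self _))
      have hfl : f l ≠ 0 := by
        have := hfS (l - v) (mem_sup_right (mem_span_singleton_self _))
        rw [map_sub, hfv, sub_eq_zero] at this
        rw [this]; exact one_ne_zero
      refine ⟨v, f, hfv, hfw, hw0, huv, hfl, fun h45 => ?_, fun μ h1 h3 =>
        redN_not_scalar N hr hns hfv hfw (fun h => hvR (Or.inl h)) hvT
          (fun μ' h' => absurd h' fun h'' => hT μ' h'') h1 h3, rank_facts f hfv hfw (fun h2 _ hf => ?_)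
          (fun _ => hC)⟩
      · have h5 : 5 ≤ n := h45.elim id fun h => by omega
        by_contra hc
        push Not at hc
        refine hZ h5 ((Submodule.mem_dualAnnihilator _).2 ?_)
        rintro _ ⟨x, rfl⟩
        have := hc (x - f x • v) (by rw [map_sub, map_smul, hfv, smul_eq_mul, mul_one, sub_self])
        rwa [map_sub, map_sub, map_smul, map_smul, hfw, smul_zero, sub_zero] at this
      · exact hfl ((Submodule.mem_dualAnnihilator _).1 hf l (LinearMap.mem_ker.2 (htwo hq3 h2).2))
    by_cases h5 : 5 ≤ n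
    swap
    · obtain ⟨f, hfv, hfS, -⟩ := exists_fn S hvS [] (by
        simp only [List.map_nil, List.sum_nil]
        exact lt_of_lt_of_le (pow_pos (by omega) _) cS)
      exact goal f hfv hfS (fun h => absurd h h5) (fun _ h => absurd h h5)
    have hr3 : 3 ≤ rk N := by
      by_contra h
      have := (htwo hq3 (by omega)).1
      omega
    by_cases h3 : rk N = 3
    · obtain ⟨hA', hE⟩ := hv2 hq3 h3 h5
      have hlv : ∀ {X : Submodule F V}, v ∉ X ⊔ span F {l} → l - v ∉ X := fun {X} hX h =>
        hX (by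
          rw [show v = l - (l - v) by abel]
          exact sub_mem (mem_sup_right (mem_span_singleton_self l)) (mem_sup_left h))
      have grow : ∀ X : Submodule F V, l - v ∉ X → finrank F X + 1 ≤ finrank F ↥(X ⊔ S) := fun X hX => by
        refine Submodule.finrank_lt_finrank_of_lt (lt_of_le_of_ne le_sup_left fun e => hX ?_)
        rw [e]
        exact mem_sup_right (mem_sup_right (mem_span_singleton_self _))
      obtain ⟨f, hfv, hfS, hf⟩ := exists_fn S hvS [(range N).dualAnnihilator, (ker N).dualAnnihilator] (by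
        simp only [List.map_cons, List.map_nil, List.sum_cons, List.sum_nil, add_zero]
        rw [sup_span_ann, sup_span_ann]
        have g1 := grow _ (hlv hA')
        have g2 := grow _ (hlv hE)
        have c1 := cD (range N ⊔ S) (n - 4) (by unfold rk at h3; omega)
        have c2 := cD (ker N ⊔ S) 2 (by omega)
        refine lt_of_lt_of_le ?_ cS
        obtain ⟨k, hk⟩ : ∃ k, n = k + 5 := ⟨n - 5, by omega⟩
        rw [show n - 4 = k + 1 by omega] at c1
        rw [show n - 2 = k + 3 by omega, hq3]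
        rw [hq3] at c1 c2
        have : 0 < 2 ^ k := pow_pos (by omega) k
        simp only [pow_add] at c1 ⊢
        omega)
      simp only [List.forall_mem_cons] at hf
      exact goal f hfv hfS (fun _ => hf.1) (fun _ _ => hf.2.1)
    · obtain ⟨f, hfv, hfS, hf⟩ := exists_fn S hvS [(range N).dualAnnihilator] (by
        simp only [List.map_cons, List.map_nil, List.sum_cons, List.sum_nil, add_zero]
        rw [sup_span_ann]
        have c1 := cD (range N ⊔ S) (n - 4)
          (by have := Submodule.finrank_mono (le_sup_left : range N ≤ range N ⊔ S); unfold rk at h3 hr3; omega)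
        refine lt_of_le_of_lt c1 (lt_of_lt_of_le ?_ cS)
        exact Nat.pow_lt_pow_right (by omega) (by omega))
      simp only [List.forall_mem_cons] at hf
      exact goal f hfv hfS (fun _ => hf.1) (fun h => absurd h h3)
  -- at least three field elements
  replace hq3 : 3 ≤ q := by omega
  set S := span F {N v} with hS
  have hSdim : finrank F S = 1 := finrank_span_singleton hw0
  have cS : q ^ (n - 1) = Nat.card ↥S.dualAnnihilator := by
    have := finrank_ann S
    rw [Module.natCard_eq_pow_finrank (K := F) (V := ↥S.dualAnnihilator), Nat.card_eq_fintype_card]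
    congr 1
    omega
  have c1 : Nat.card ↥((span F {l}).dualAnnihilator ⊓ S.dualAnnihilator) ≤ q ^ (n - 2) := by
    rw [sup_span_ann]
    refine cD _ _ ?_
    have : finrank F S < finrank F ↥(span F {l} ⊔ S) :=
      Submodule.finrank_lt_finrank_of_lt (lt_of_le_of_ne le_sup_right fun e => hlw (by
        rw [← hS] at *; rw [e]; exact mem_sup_left (mem_span_singleton_self l)))
    omega
  have hsmall : ∀ μ₁ μ₂, InT n N μ₁ → rk (N - μ₁ • 1) ≤ 1 → InT n N μ₂ → rk (N - μ₂ • 1) ≤ 1 → μ₁ = μ₂ := by
    intro a b ha ha' hb hb'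
    by_contra hne
    obtain ⟨h4, -⟩ := inT_two hn hn3 ha hb hne
    have hd : ker (N - a • 1) ⊓ ker (N - b • 1) = ⊥ := by
      rw [Submodule.eq_bot_iff]
      rintro x ⟨h1, h2⟩
      rw [SetLike.mem_coe, mem_ker_sub_smul] at h1 h2
      have hx : (a - b) • x = 0 := by rw [sub_smul, ← h1, ← h2, sub_self]
      exact (smul_eq_zero.1 hx).resolve_left (sub_ne_zero.2 hne)
    have hs := Submodule.finrank_sup_add_finrank_inf_eq (ker (N - a • 1)) (ker (N - b • 1))
    rw [hd, finrank_bot, add_zero] at hs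
    have := Submodule.finrank_le (ker (N - a • 1) ⊔ ker (N - b • 1))
    have := finrank_ker_add (N - a • 1)
    have := finrank_ker_add (N - b • 1)
    omega
  obtain ⟨X, hX, hXT, hXC⟩ : ∃ X : Submodule F (Dual F V),
      (Nat.card ↥(X ⊓ S.dualAnnihilator) ≤ q ^ rk N ∧ rk N = 2 ∧ 4 ≤ n ∨
        Nat.card ↥(X ⊓ S.dualAnnihilator) ≤ q ∧ ¬ (rk N = 2 ∧ 4 ≤ n)) ∧
      (∀ μ, InT n N μ → rk (N - μ • 1) ≤ 1 → (ker (N - μ • 1)).dualAnnihilator ≤ X) ∧
      (rk N = 2 → 4 ≤ n → (ker N).dualAnnihilator ≤ X) := by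
    by_cases h2 : rk N = 2 ∧ 4 ≤ n
    · refine ⟨(ker N).dualAnnihilator, Or.inl ⟨?_, h2.1, h2.2⟩, fun μ hμ hs => ?_, fun _ _ => le_rfl⟩
      · refine (Nat.card_le_card_of_injective (Submodule.inclusion inf_le_left)
          (Submodule.inclusion_injective _)).trans (cD _ _ ?_)
        omega
      · exfalso
        have hd : ker (N - μ • 1) ⊓ ker N = ⊥ := by
          rw [Submodule.eq_bot_iff]
          rintro x ⟨h1, h2⟩
          rw [SetLike.mem_coe, mem_ker_sub_smul, LinearMap.mem_ker.1 h2] at h1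
          exact (smul_eq_zero.1 h1.symm).resolve_left hμ.1
        have hs' := Submodule.finrank_sup_add_finrank_inf_eq (ker (N - μ • 1)) (ker N)
        rw [hd, finrank_bot, add_zero] at hs'
        have := Submodule.finrank_le (ker (N - μ • 1) ⊔ ker N)
        have := finrank_ker_add (N - μ • 1)
        omega
    · by_cases hμ : ∃ μ, InT n N μ ∧ rk (N - μ • 1) ≤ 1
      · obtain ⟨μ, hμ, hs⟩ := hμ
        refine ⟨(ker (N - μ • 1)).dualAnnihilator, Or.inr ⟨?_, h2⟩, fun μ' h' hs' =>
          (hsmall μ' μ h' hs' hμ hs) ▸ le_rfl, fun a b => absurd ⟨a, b⟩ h2⟩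
        refine (Nat.card_le_card_of_injective (Submodule.inclusion inf_le_left)
          (Submodule.inclusion_injective _)).trans ((cD _ 1 ?_).trans (pow_one q).le)
        have := finrank_ker_add (N - μ • 1)
        omega
      · push Not at hμ
        refine ⟨⊥, Or.inr ⟨?_, h2⟩, fun μ h hs => absurd hs (by have := hμ μ h; omega),
          fun a b => absurd ⟨a, b⟩ h2⟩
        rw [bot_inf_eq, Nat.card_unique]
        omega
  have cZ : Nat.card ↥((range N).dualAnnihilator ⊓ S.dualAnnihilator) ≤ q ^ (n - rk N) := by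
    refine (Nat.card_le_card_of_injective (Submodule.inclusion inf_le_left)
      (Submodule.inclusion_injective _)).trans (cD _ _ ?_)
    unfold rk at hrn ⊢
    omega
  obtain ⟨f, hfv, hfS, hf⟩ := exists_fn S hvw
      (if 5 ≤ n ∨ (n = 4 ∧ 4 ≤ q) then [(span F {l}).dualAnnihilator, X, (range N).dualAnnihilator]
        else [(span F {l}).dualAnnihilator, X]) (by
    rw [← cS]
    split <;> simp only [List.map_cons, List.map_nil, List.sum_cons, List.sum_nil, add_zero]
    · have h45 : 5 ≤ n ∨ (n = 4 ∧ 4 ≤ q) := by assumption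
      rcases h45 with h5 | ⟨h4, hq4⟩
      swap
      · subst h4
        have z : Nat.card ↥((range N).dualAnnihilator ⊓ S.dualAnnihilator) ≤ q ^ 2 :=
          cZ.trans (pw _ _ (by omega))
        have hx : Nat.card ↥(X ⊓ S.dualAnnihilator) ≤ q ^ 2 := by
          rcases hX with ⟨h, h', -⟩ | ⟨h, -⟩
          · rwa [h'] at h
          · exact h.trans (by nlinarith)
        rw [show (4 : ℕ) - 2 = 2 from rfl] at c1
        rw [show (4 : ℕ) - 1 = 3 from rfl]
        nlinarith [Nat.mul_le_mul_right (q ^ 2) hq4, pow_pos (show 0 < q by omega) 2]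
      obtain ⟨k, hk⟩ : ∃ k, n = k + 5 := ⟨n - 5, by omega⟩
      have z := cZ
      rw [show n - 2 = k + 3 by omega] at c1
      rw [show n - 1 = k + 4 by omega]
      have hk1 : 1 ≤ q ^ k := Nat.one_le_pow _ _ (by omega)
      have hq27 : 3 * (3 * 3) ≤ q * (q * q) := Nat.mul_le_mul hq3 (Nat.mul_le_mul hq3 hq3)
      rcases hX with ⟨hx, hr2, -⟩ | ⟨hx, hnr⟩
      · rw [hr2] at hx z
        rw [show n - 2 = k + 3 by omega] at z
        simp only [pow_add] at c1 z ⊢
        nlinarith [Nat.mul_le_mul hk1 hq27, Nat.mul_le_mul_left (q ^ k * q ^ 3) hq3, pow_succ q 3,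
          Nat.mul_le_mul hk1 (Nat.mul_le_mul_right (q ^ 2) (show 1 ≤ q by omega))]
      · have z' : Nat.card ↥((range N).dualAnnihilator ⊓ S.dualAnnihilator) ≤ q ^ (k + 2) :=
          z.trans (pw _ _ (by omega))
        simp only [pow_add] at c1 z' ⊢
        nlinarith [Nat.mul_le_mul hk1 hq27, Nat.mul_le_mul_left (q ^ k * q ^ 3) hq3,
          Nat.mul_le_mul_left (q ^ k * q ^ 2) hq3]
    · rcases Nat.lt_or_ge n 4 with h4 | h4
      · obtain rfl : n = 3 := by omega
        have hx : Nat.card ↥(X ⊓ S.dualAnnihilator) ≤ q := by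
          rcases hX with ⟨-, -, h⟩ | ⟨h, -⟩
          · omega
          · exact h
        rw [show (3 : ℕ) - 2 = 1 from rfl, pow_one] at c1
        rw [show (3 : ℕ) - 1 = 2 from rfl]
        nlinarith
      · obtain rfl : n = 4 := by omega
        have hx : Nat.card ↥(X ⊓ S.dualAnnihilator) ≤ q ^ 2 := by
          rcases hX with ⟨h, h', -⟩ | ⟨h, -⟩
          · rwa [h'] at h
          · exact h.trans (by nlinarith)
        rw [show (4 : ℕ) - 2 = 2 from rfl] at c1
        rw [show (4 : ℕ) - 1 = 3 from rfl]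
        nlinarith [Nat.mul_le_mul_right (q ^ 2) hq3])
  have hfw : f (N v) = 0 := hfS _ (mem_span_singleton_self _)
  have hfl : f ∉ (span F {l}).dualAnnihilator := hf _ (by split <;> simp)
  have hfX : f ∉ X := hf _ (by split <;> simp)
  refine ⟨v, f, hfv, hfw, hw0, huv, fun e => hfl ((Submodule.mem_dualAnnihilator _).2 ?_),
    fun h5 => ?_, fun μ h1 h3 => redN_not_scalar N hr hns hfv hfw (fun h => hvR (Or.inl h)) hvT
      (fun μ' h' hs hm => hfX (hXT μ' h' hs hm)) h1 h3,
    rank_facts f hfv hfw (fun a b hm => hfX (hXC a b hm)) (fun h => absurd h (by omega))⟩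
  · intro x hx
    obtain ⟨c, rfl⟩ := mem_span_singleton.1 hx
    rw [map_smul, e, smul_zero]
  · by_contra hc
    push Not at hc
    refine hf (range N).dualAnnihilator (by simp [h5]) ((Submodule.mem_dualAnnihilator _).2 ?_)
    rintro _ ⟨x, rfl⟩
    have := hc (x - f x • v) (by rw [map_sub, map_smul, hfv, smul_eq_mul, mul_one, sub_self])
    rwa [map_sub, map_sub, map_smul, map_smul, hfw, smul_zero, sub_zero] at this

end Cfsg.Agent.SLComm
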