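import Cfsg.Agent.SLComm.Check
import Cfsg.Agent.SLComm.Step
import Mathlib.LinearAlgebra.Matrix.ToLin
import Mathlib.Algebra.Polynomial.SpecificDegree
import Mathlib.LinearAlgebra.Center

/-!
The base of the recursion over fields with at most three elements, in linear language (owner: helper16).
-/

set_option autoImplicit false

namespace Cfsg.Agent.SLComm

open Polynomial Module

variable {F : Type*} [Field F]

/-- The cubic used over small fields. -/
noncomputable def p3 (F : Type*) [Field F] : F[X] := X ^ 3 - (X + C 1)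

theorem p3_monic : (p3 F).Monic :=
  monic_X_pow_sub (lt_of_eq_of_lt (degree_X_add_C 1) (by norm_num))

theorem p3_natDegree : (p3 F).natDegree = 3 := by
  rw [p3, natDegree_sub_eq_left_of_natDegree_lt, natDegree_X_pow]
  rw [natDegree_X_add_C, natDegree_X_pow]
  norm_num

theorem p3_coeff_zero : (p3 F).coeff 0 = -1 := by simp [p3]

theorem p3_irreducible [Fintype F] (hq : Fintype.card F ≤ 3) : Irreducible (p3 F) := by
  rw [p3_monic.irreducible_iff_roots_eq_zero_of_degree_le_three (by rw [p3_natDegree]; norm_num)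
    (by rw [p3_natDegree])]
  refine Multiset.eq_zero_of_forall_notMem fun x hx => ?_
  rw [mem_roots p3_monic.ne_zero, IsRoot, p3] at hx
  simp only [eval_sub, eval_pow, eval_X, eval_add, eval_C] at hx
  have hpow := FiniteField.pow_card x
  have h2 : 2 ≤ Fintype.card F := Fintype.one_lt_card
  have h3 : x ^ 3 = x := by
    rcases (show Fintype.card F = 2 ∨ Fintype.card F = 3 by omega) with h | h
    · rw [h] at hpow
      rw [pow_succ, hpow, ← pow_two, hpow]
    · rwa [h] at hpow
  rw [h3] at hx
  exact one_ne_zero (show (1 : F) = 0 by linear_combination -hx)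

theorem p3_eval_one : (p3 F).eval 1 ≠ 0 := by simp [p3]

variable {V : Type*} [AddCommGroup V] [Module F V] [FiniteDimensional F V]

theorem p3_cyc [Fintype F] (hq : Fintype.card F ≤ 3) (h3 : finrank F V = 3) {T : V →ₗ[F] V}
    (hT : ∀ x, T (T (T x)) = T x + x) : Cyc T (p3 F) := by
  have hann : ∀ x, aeval T (p3 F) x = 0 := fun x => by
    simp [p3, pow_succ, pow_zero, hT]
  obtain ⟨z, hz⟩ : ∃ z : V, z ≠ 0 := by
    haveI : Nontrivial V := nontrivial_of_finrank_pos (R := F) (by omega)
    exact exists_ne 0
  refine cyc_of_vector p3_monic (by rw [p3_natDegree, h3]) hann (z := z) ?_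
  set R : Submodule F V := LinearMap.range ((LinearMap.applyₗ z).comp (aeval T).toLinearMap) with hR
  have key : LinearIndependent F ![z, T z, T (T z)] := by
    rw [Fintype.linearIndependent_iff]
    intro g hg
    simp only [Fin.sum_univ_three, Matrix.cons_val_zero, Matrix.cons_val_one, Matrix.cons_val] at hg
    set h : F[X] := C (g 0) + C (g 1) * X + C (g 2) * X ^ 2 with hh
    have hhz : aeval T h z = 0 := by
      rw [hh]
      simp only [map_add, map_mul, aeval_C, aeval_X, map_pow, LinearMap.add_apply, Module.End.mul_apply,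
        Module.algebraMap_end_apply, pow_two]
      exact hg
    by_cases h0 : h = 0
    · intro i
      fin_cases i
      · simpa [hh] using congrArg (fun p : F[X] => p.coeff 0) h0
      · simpa [hh, coeff_X, coeff_X_pow] using congrArg (fun p : F[X] => p.coeff 1) h0
      · simpa [hh, coeff_X, coeff_X_pow] using congrArg (fun p : F[X] => p.coeff 2) h0
    exfalso
    have hdeg : h.natDegree < (p3 F).natDegree := by
      rw [p3_natDegree, hh]
      refine lt_of_le_of_lt (natDegree_add_le_of_degree_le (n := 2) ?_ ?_) (by norm_num)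
      · refine (natDegree_add_le_of_degree_le (n := 2) ?_ ?_)
        · simp
        · exact natDegree_mul_le.trans (by simp)
      · exact natDegree_mul_le.trans (by simp)
    have hco : IsCoprime (p3 F) h := (p3_irreducible hq).coprime_iff_not_dvd.2 fun hd => h0 (by
      by_contra hne
      exact absurd (natDegree_le_of_dvd hd hne) (not_le.2 hdeg))
    obtain ⟨a, b, hab⟩ := hco
    refine hz ?_
    have := congrArg (fun p => aeval T p z) hab
    simp only [map_one, Module.End.one_apply, map_add, LinearMap.add_apply, aeval_mul_apply, hann,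
      hhz, map_zero, add_zero] at this
    exact this.symm
  have htop : R = ⊤ := by
    refine Submodule.eq_top_of_finrank_eq (le_antisymm (Submodule.finrank_le _) ?_)
    have hle : Submodule.span F (Set.range ![z, T z, T (T z)]) ≤ R := by
      rw [Submodule.span_le]
      rintro _ ⟨i, rfl⟩
      fin_cases i
      · exact ⟨1, by simp⟩
      · exact ⟨X, by simp⟩
      · exact ⟨X * X, by simp⟩
    have := Submodule.finrank_mono hle
    rw [finrank_span_eq_card key, Fintype.card_fin] at this
    omega
  intro x
  have hx : x ∈ R := htop ▸ Submodule.mem_top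
  exact hx

namespace M3

variable {R S : Type*} [CommRing R] [CommRing S]

/-- Entrywise map. -/
def map (σ : R → S) (x : M3 R) : M3 S :=
  ⟨σ x.a, σ x.b, σ x.c, σ x.d, σ x.e, σ x.f, σ x.g, σ x.h, σ x.i⟩

theorem isRt_map (σ : R →+* S) {x : M3 R} (h : IsRt x) : IsRt (x.map σ) := by
  have := congrArg (map σ) h
  simpa [IsRt, map, mul, addOne] using this

theorem adj_mul_map (σ : R →+* S) (x y : M3 R) :
    (mul (adj x) y).map σ = mul (adj (x.map σ)) (y.map σ) := by
  simp [map, mul, adj]

theorem smallRank_map {σ : R →+* S} {x : M3 R} (h : SmallRank x) : SmallRank (x.map σ) := by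
  obtain ⟨h1, h2, h3, h4, h5, h6, h7, h8, h9⟩ := h
  have e := fun {a b : R} (h : a = b) => congrArg σ h
  exact ⟨by simpa [map] using e h1, by simpa [map] using e h2, by simpa [map] using e h3,
    by simpa [map] using e h4, by simpa [map] using e h5, by simpa [map] using e h6,
    by simpa [map] using e h7, by simpa [map] using e h8, by simpa [map] using e h9⟩

/-- The Mathlib matrix. -/
def toMat (x : M3 R) : Matrix (Fin 3) (Fin 3) R := !![x.a, x.b, x.c; x.d, x.e, x.f; x.g, x.h, x.i]

theorem toMat_mul (x y : M3 R) : toMat (mul x y) = toMat x * toMat y := by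
  ext i j
  fin_cases i <;> fin_cases j <;> simp [toMat, mul, Matrix.mul_apply, Fin.sum_univ_three]

theorem toMat_addOne (x : M3 R) : toMat (addOne x) = toMat x + 1 := by
  ext i j
  fin_cases i <;> fin_cases j <;> simp [toMat, addOne]

theorem det_toMat (x : M3 R) : (toMat x).det = det x := by
  rw [Matrix.det_fin_three]
  simp [toMat, det]
  ring

theorem toMat_mul_adj (x : M3 R) : toMat x * toMat (adj x) = det x • 1 := by
  ext i j
  fin_cases i <;> fin_cases j <;> simp [toMat, adj, det, Matrix.mul_apply, Fin.sum_univ_three] <;> ring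

end M3

theorem hasWit_of_ringHom {R : Type*} [CommRing R] {ws : List (M3 R)}
    (hchk : ∀ b α a β d γ : R, M3.det (M3.shape b α a β d γ) = 1 → ¬ M3.SmallRank (M3.shape b α a β d γ) →
      ∃ T ∈ ws, M3.IsRt T ∧ M3.IsRt (M3.mul (M3.adj (M3.shape b α a β d γ)) T))
    (σ : R ≃+* F) (b α a β d γ : F) (hdet : M3.det (M3.shape b α a β d γ) = 1)
    (hs : ¬ M3.SmallRank (M3.shape b α a β d γ)) : M3.HasWit (M3.shape b α a β d γ) := by
  set S := M3.shape (σ.symm b) (σ.symm α) (σ.symm a) (σ.symm β) (σ.symm d) (σ.symm γ)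
  have hS : S.map (σ : R →+* F) = M3.shape b α a β d γ := by simp [S, M3.map, M3.shape]
  obtain ⟨T, -, h1, h2⟩ := hchk (σ.symm b) (σ.symm α) (σ.symm a) (σ.symm β) (σ.symm d) (σ.symm γ) (by
    apply σ.injective
    rw [map_one, ← hdet, ← hS]
    simp [S, M3.det, M3.map, M3.shape]) fun h => hs (hS ▸ M3.smallRank_map (σ := (σ : R →+* F)) h)
  refine ⟨T.map (σ : R →+* F), M3.isRt_map _ h1, ?_⟩
  rw [← hS, ← M3.adj_mul_map]
  exact M3.isRt_map _ h2

/-- **The base over small fields.** -/
theorem base_small [Fintype F] (hq : Fintype.card F ≤ 3) (h3 : finrank F V = 3) (A : V →ₗ[F] V)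
    (hdet : LinearMap.det A = 1) (hr : 2 ≤ rk (A - 1)) (hns : ∀ a : F, A ≠ a • 1) :
    ∃ L Y : V →ₗ[F] V, A ∘ₗ Y = L ∧ Cyc L (p3 F) ∧ Cyc Y (p3 F) := by
  obtain ⟨v, hv⟩ : ∃ v : V, ∀ c : F, A v ≠ c • v := by
    by_contra hc
    push Not at hc
    obtain ⟨c, hc'⟩ := LinearMap.exists_eq_smul_id_of_forall_notLinearIndependent (f := A) fun x => by
      intro hli
      obtain ⟨c, hc⟩ := hc x
      rw [LinearIndependent.pair_iff] at hli
      exact one_ne_zero (neg_eq_zero.1 (hli c (-1) (by rw [hc, neg_smul, one_smul, add_neg_cancel])).2)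
    exact hns c hc'
  have hv0 : v ≠ 0 := fun e => hv 0 (by rw [e, map_zero, smul_zero])
  obtain ⟨x, hx⟩ : ∃ x : V, x ∉ Submodule.span F {v, A v} := by
    by_contra hc
    push Not at hc
    have h1 : finrank F (Submodule.span F ({v, A v} : Set V)) ≤ 2 := by
      rw [Submodule.span_insert]
      refine (finrank_sup_span_le _ _).trans ?_
      have : finrank F (Submodule.span F ({v} : Set V)) ≤ 1 := (finrank_span_le_card _).trans (by simp)
      omega
    rw [Submodule.eq_top_iff'.2 hc, finrank_top, h3] at h1
    omega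
  have hli : LinearIndependent F ![v, A v, x] := by
    have h2 : LinearIndependent F ![v, A v] := by
      rw [LinearIndependent.pair_iff' hv0]
      exact fun c h => hv c h.symm
    have e : ![v, A v, x] = Fin.snoc ![v, A v] x := by ext i; fin_cases i <;> rfl
    rw [e]
    refine h2.finSnoc ?_
    simpa [Matrix.range_cons, Matrix.range_empty, Set.pair_comm] using hx
  set bas := basisOfLinearIndependentOfCardEqFinrank hli (by simp [h3]) with hbas
  have hb : ∀ i, bas i = ![v, A v, x] i := fun i => by simp [hbas]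
  set M := LinearMap.toMatrix bas bas A with hM
  have hc0 : ∀ i, M i 0 = if i = 1 then 1 else 0 := fun i => by
    have e : A v = bas 1 := by rw [hb]; rfl
    rw [hM, LinearMap.toMatrix_apply, hb]
    simp [e, Finsupp.single_apply, eq_comm]
  set S := M3.shape (M 0 1) (M 0 2) (M 1 1) (M 1 2) (M 2 1) (M 2 2) with hS
  have hSM : S.toMat = M := by
    ext i j
    fin_cases i <;> fin_cases j <;> simp [hS, M3.toMat, M3.shape, hc0]
  have hdetS : M3.det S = 1 := by rw [← M3.det_toMat, hSM, hM, LinearMap.det_toMatrix, hdet]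
  have hsr : ¬ M3.SmallRank S := by
    intro hsm
    obtain ⟨h1, h2, -, h4, h5, -, -, -, -⟩ := hsm
    simp only [hS, M3.shape, zero_sub, mul_one] at h1 h2 h4 h5
    have hrange : LinearMap.range (A - 1) ≤ Submodule.span F {(A - 1) v} := by
      rintro _ ⟨y, rfl⟩
      rw [Submodule.mem_span_singleton]
      refine ⟨bas.repr y 0 - M 0 1 * bas.repr y 1 - M 0 2 * bas.repr y 2, ?_⟩
      conv_rhs => rw [← bas.sum_repr y]
      have hA : ∀ j, A (bas j) = ∑ i, M i j • bas i := fun j => by
        conv_lhs => rw [← bas.sum_repr (A (bas j))]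
        exact Finset.sum_congr rfl fun i _ => by rw [hM, LinearMap.toMatrix_apply]
      have e0 := hA 0
      have e1 := hA 1
      have e2 := hA 2
      have eb0 : bas 0 = v := by rw [hb]; rfl
      have eb1 : bas 1 = A v := by rw [hb]; rfl
      simp only [Fin.sum_univ_three, hc0] at e0 e1 e2
      rw [show M 1 1 = 1 - M 0 1 by linear_combination -h1, show M 2 1 = 0 by linear_combination -h4] at e1
      rw [show M 1 2 = -M 0 2 by linear_combination -h2, show M 2 2 = 1 by linear_combination -h5] at e2
      simp only [Fin.sum_univ_three, LinearMap.sub_apply, Module.End.one_apply, map_add, map_smul, e1, e2]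
      rw [eb0, eb1]
      module
    have := Submodule.finrank_mono hrange
    have h1' : finrank F (Submodule.span F ({(A - 1) v} : Set V)) ≤ 1 :=
      (finrank_span_le_card _).trans (by simp)
    unfold rk at hr
    omega
  obtain ⟨T, hT1, hT2⟩ : M3.HasWit S := by
    have h2 : 2 ≤ Fintype.card F := Fintype.one_lt_card
    rcases (show Fintype.card F = 2 ∨ Fintype.card F = 3 by omega) with h | h
    · exact hasWit_of_ringHom check2 (ZMod.ringEquivOfPrime F Nat.prime_two h) _ _ _ _ _ _ hdetS hsr
    · exact hasWit_of_ringHom check3 (ZMod.ringEquivOfPrime F Nat.prime_three h) _ _ _ _ _ _ hdetS hsr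
  have cube : ∀ {U : M3 F}, M3.IsRt U → ∀ y : V,
      Matrix.toLin bas bas U.toMat (Matrix.toLin bas bas U.toMat (Matrix.toLin bas bas U.toMat y)) =
      Matrix.toLin bas bas U.toMat y + y := by
    intro U hU y
    have h := congrArg M3.toMat hU
    rw [M3.toMat_mul, M3.toMat_mul, M3.toMat_addOne] at h
    have h' := congrArg (fun m => Matrix.toLin bas bas m y) h
    simp only [Matrix.toLin_mul bas bas bas, map_add, Matrix.toLin_one, LinearMap.add_apply,
      LinearMap.id_apply, LinearMap.comp_apply] at h'
    exact h'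
  refine ⟨Matrix.toLin bas bas T.toMat, Matrix.toLin bas bas (M3.mul (M3.adj S) T).toMat, ?_,
    p3_cyc hq h3 (cube hT1), p3_cyc hq h3 (cube hT2)⟩
  rw [← Matrix.toLin_toMatrix bas bas A, ← hM, ← hSM, M3.toMat_mul, ← Matrix.toLin_mul bas bas bas,
    ← Matrix.mul_assoc, M3.toMat_mul_adj, hdetS, one_smul, Matrix.one_mul]

end Cfsg.Agent.SLComm
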