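import Cfsg.Agent.SLComm.Scalar
import Cfsg.Agent.SLComm.Base23

/-!
Thompson's theorem: the recursion and the assembly (owner: helper16).
-/

set_option autoImplicit false

namespace Cfsg.Agent.SLComm

open Polynomial Module

universe u

variable {F : Type*} [Field F]

/-- The polynomial of the two conjugate factors in dimension `m`. -/
noncomputable def pat (m₀ : ℕ) (p₀ : F[X]) (m : ℕ) : F[X] := (X - C 1) ^ (m - m₀) * p₀

/-- The statement proved by recursion on the dimension. -/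
def Fact' (F : Type*) [Field F] [Fintype F] (m₀ : ℕ) (p₀ : F[X]) (m : ℕ) : Prop :=
  ∀ (V : Type u) [AddCommGroup V] [Module F V] [FiniteDimensional F V], finrank F V = m →
    ∀ A : V →ₗ[F] V, LinearMap.det A = 1 → (∀ a : F, A ≠ a • 1) → (3 ≤ m → 2 ≤ rk (A - 1)) →
    ∀ (u : V →ₗ[F] F) (l : V), (m₀ < m → u ≠ 0 ∧ l ≠ 0 ∧
        (Fintype.card F = 2 → rk (A - 1) = 2 → m = 4 ∧ (A - 1) l = 0)) →
      ∃ L Y : V →ₗ[F] V, A ∘ₗ Y = L ∧ Cyc L (pat m₀ p₀ m) ∧ Cyc Y (pat m₀ p₀ m) ∧
        (m₀ < m → l ∉ LinearMap.range (L - 1) ∧ ∃ e, Y e = e ∧ u e ≠ 0)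

variable {V : Type u} [AddCommGroup V] [Module F V]

/-- The reduced map on `ker f`. -/
def red (A : V →ₗ[F] V) (v : V) (f : V →ₗ[F] F) (hfA : f (A v) = 1) :
    ↥(LinearMap.ker f) →ₗ[F] ↥(LinearMap.ker f) :=
  ((A - (f.comp A).smulRight (A v)).comp (LinearMap.ker f).subtype).codRestrict _ fun x => by
    simp [hfA]

@[simp] theorem red_apply (A : V →ₗ[F] V) (v : V) (f : V →ₗ[F] F) (hfA : f (A v) = 1)
    (x : ↥(LinearMap.ker f)) : ((red A v f hfA x : ↥(LinearMap.ker f)) : V) = A x - f (A x) • A v := rfl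

/-- `A` in the coordinates given by `v` and `ker f`. -/
theorem split_conj (A : V →ₗ[F] V) (v : V) (f : V →ₗ[F] F) (hfv : f v = 1) (hfA : f (A v) = 1)
    (p : F × ↥(LinearMap.ker f)) :
    A (split v f hfv p) = split v f hfv
      (low 1 ⟨A v - v, by simp [hfA, hfv]⟩ (red A v f hfA)
        (upp 1 (f.comp (A.comp (LinearMap.ker f).subtype)) 1 p)) := by
  simp only [split_apply, upp_apply, low_apply, one_mul, Submodule.coe_add, Submodule.coe_smul, red_apply,
    Module.End.one_apply, map_add, map_smul, LinearMap.comp_apply, Submodule.subtype_apply]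
  module

theorem det_red [FiniteDimensional F V] (A : V →ₗ[F] V) (v : V) (f : V →ₗ[F] F) (hfv : f v = 1)
    (hfA : f (A v) = 1) : LinearMap.det (red A v f hfA) = LinearMap.det A := by
  set σ := split v f hfv
  have hA : A = (σ : _ →ₗ[F] V) ∘ₗ (low 1 ⟨A v - v, by simp [hfA, hfv]⟩ (red A v f hfA) ∘ₗ
      upp 1 (f.comp (A.comp (LinearMap.ker f).subtype)) 1) ∘ₗ (σ.symm : V →ₗ[F] _) := by
    refine LinearMap.ext fun x => ?_
    obtain ⟨p, rfl⟩ := σ.surjective x
    simp only [LinearMap.coe_comp, Function.comp_apply, LinearEquiv.coe_coe, LinearEquiv.symm_apply_apply]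
    exact split_conj A v f hfv hfA p
  conv_rhs => rw [hA, LinearMap.det_conj, LinearMap.det_comp, det_low, det_upp]
  simp

/-- Gluing a line to a factorisation of the reduced map. -/
theorem glue [FiniteDimensional F V] (A : V →ₗ[F] V) (v : V) (f : V →ₗ[F] F) (hfv : f v = 1)
    (hfA : f (A v) = 1) {c : F} {P : F[X]} (hP : P.Monic) (hd : P.natDegree + 1 = finrank F V)
    {L₁ Y₁ : ↥(LinearMap.ker f) →ₗ[F] ↥(LinearMap.ker f)} (hrel : red A v f hfA ∘ₗ Y₁ = L₁)
    (hL : Cyc L₁ P) (hY : Cyc Y₁ P)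
    (hlink : P.eval c ≠ 0 ∨ ((c • (⟨A v - v, by simp [hfA, hfv]⟩ : ↥(LinearMap.ker f))) ∉
      LinearMap.range (L₁ - c • 1) ∧ ∃ e, Y₁ e = c • e ∧ f (A (Y₁ e : ↥(LinearMap.ker f))) ≠ 0)) :
    ∃ L Y : V →ₗ[F] V, A ∘ₗ Y = L ∧ Cyc L ((X - C c) * P) ∧ Cyc Y ((X - C c) * P) ∧
      Y v = c • v ∧ ∀ x, f (L x) = c * f x := by
  set σ := split v f hfv
  set w : ↥(LinearMap.ker f) := ⟨A v - v, by simp [hfA, hfv]⟩
  set φ := f.comp (A.comp (LinearMap.ker f).subtype)
  have hk := finrank_ker_eq_sub_one hfv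
  have hd' : P.natDegree = finrank F ↥(LinearMap.ker f) := by omega
  have c1 : Cyc (low c (c • w) L₁) ((X - C c) * P) :=
    cyc_low hP hd' hL (hlink.imp id fun h => h.1)
  have c2 : Cyc (upp c (-(φ.comp Y₁)) Y₁) ((X - C c) * P) :=
    cyc_upp hP hd' hY (hlink.imp id fun ⟨_, e, he, he'⟩ => ⟨e, he, by simpa [φ] using he'⟩)
  refine ⟨(σ : _ →ₗ[F] V) ∘ₗ low c (c • w) L₁ ∘ₗ (σ.symm : V →ₗ[F] _),
    (σ : _ →ₗ[F] V) ∘ₗ upp c (-(φ.comp Y₁)) Y₁ ∘ₗ (σ.symm : V →ₗ[F] _), ?_,
    c1.conj σ fun x => by simp, c2.conj σ fun x => by simp, ?_, fun x => ?_⟩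
  · refine LinearMap.ext fun x => ?_
    obtain ⟨p, rfl⟩ := σ.surjective x
    simp only [LinearMap.coe_comp, Function.comp_apply, LinearEquiv.coe_coe, LinearEquiv.symm_apply_apply]
    rw [split_conj A v f hfv hfA]
    refine congrArg σ ?_
    have hfst : 1 * (c * p.1 + (-(φ.comp Y₁)) p.2) + φ (Y₁ p.2) = c * p.1 := by simp
    refine Prod.ext ?_ ?_
    · simp only [low_apply, upp_apply, one_mul] at hfst ⊢
      exact hfst
    · simp only [low_apply, upp_apply, Module.End.one_apply, one_mul] at hfst ⊢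
      rw [hfst, ← hrel, LinearMap.comp_apply, smul_smul, mul_comm]
  · have hv : v = σ (1, 0) := by simp [σ]
    conv_lhs => rw [hv]
    simp only [LinearMap.coe_comp, Function.comp_apply, LinearEquiv.coe_coe, LinearEquiv.symm_apply_apply]
    simp [σ]
  · obtain ⟨p, rfl⟩ := σ.surjective x
    have h2 : ∀ y : ↥(LinearMap.ker f), f (y : V) = 0 := fun y => y.2
    simp only [LinearMap.coe_comp, Function.comp_apply, LinearEquiv.coe_coe, LinearEquiv.symm_apply_apply]
    simp [σ, hfv, h2]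

theorem pat_monic {m₀ : ℕ} {p₀ : F[X]} (hp : p₀.Monic) (m : ℕ) : (pat m₀ p₀ m).Monic :=
  ((monic_X_sub_C 1).pow _).mul hp

theorem pat_natDegree {m₀ : ℕ} {p₀ : F[X]} (hp : p₀.Monic) (hd : p₀.natDegree = m₀) {m : ℕ}
    (hm : m₀ ≤ m) : (pat m₀ p₀ m).natDegree = m := by
  rw [pat, ((monic_X_sub_C 1).pow _).natDegree_mul hp, natDegree_pow, natDegree_X_sub_C, hd]
  omega

theorem pat_succ {m₀ : ℕ} {p₀ : F[X]} {m : ℕ} (hm : m₀ ≤ m) :
    pat m₀ p₀ (m + 1) = (X - C 1) * pat m₀ p₀ m := by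
  rw [pat, pat, show m + 1 - m₀ = (m - m₀) + 1 by omega, pow_succ]
  ring

theorem exists_fn_one {v : V} {S : Submodule F V} (hv : v ∉ S) : ∃ f : V →ₗ[F] F, f v = 1 ∧ ∀ x ∈ S, f x = 0 := by
  obtain ⟨g, hg1, hg2⟩ := S.exists_dual_map_eq_bot_of_notMem hv inferInstance
  refine ⟨(g v)⁻¹ • g, by simp [inv_mul_cancel₀ hg1], fun x hx => ?_⟩
  have : g x ∈ S.map g := Submodule.mem_map_of_mem hx
  rw [hg2, Submodule.mem_bot] at this
  simp [this]

variable [Fintype F]

/-- **The recursion.** -/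
theorem recursion {m₀ : ℕ} {p₀ : F[X]} (hp : p₀.Monic) (hd : p₀.natDegree = m₀) (hp1 : p₀.eval 1 ≠ 0)
    (h2 : 2 ≤ m₀) (hq : 4 ≤ Fintype.card F ∨ 3 ≤ m₀) (hbase : Fact'.{u} F m₀ p₀ m₀) {m : ℕ} (hm : m₀ ≤ m) :
    Fact'.{u} F m₀ p₀ m := by
  induction m, hm using Nat.le_induction with
  | base => exact hbase
  | succ m hm ih =>
    intro V _ _ _ hV A hdet hns hr u l hul
    obtain ⟨hu, hl, htwo⟩ := hul (by omega)
    haveI : Finite V := Module.finite_of_finite F
    have hinj : ∀ x, (A - 1) x = -x → x = 0 := fun x hx => by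
      have h : A x = 0 := by
        rw [LinearMap.sub_apply, Module.End.one_apply] at hx
        exact sub_eq_neg_self.1 hx
      have hu : IsUnit A := (LinearMap.isUnit_iff_isUnit_det A).2 (by rw [hdet]; exact isUnit_one)
      exact (Module.End.isUnit_iff A |>.1 hu).1 (by rw [h, map_zero])
    have hns' : ∀ a : F, A - 1 ≠ a • (1 : V →ₗ[F] V) := fun a e =>
      hns (a + 1) (by rw [add_smul, one_smul, ← e, sub_add_cancel])
    obtain ⟨v, f, hfv, hfw, hw0, huv, hfl, hφ, hsc, hr1, hr2⟩ :=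
      exists_step hV (by omega) (hq.imp id fun h => by omega) (A - 1) hinj (hr (by omega)) hns' hu hl htwo
    have hfA : f (A v) = 1 := by
      rw [LinearMap.sub_apply, Module.End.one_apply, map_sub, hfv, sub_eq_zero] at hfw
      exact hfw
    set A₁ := red A v f hfA with hA₁
    have hW : finrank F ↥(LinearMap.ker f) = m := by have := finrank_ker_eq_sub_one hfv; omega
    have hdet₁ : LinearMap.det A₁ = 1 := by rw [hA₁, det_red A v f hfv hfA, hdet]
    have hredN : ∀ x : ↥(LinearMap.ker f), redN (A - 1) v f (x : V) = ((A₁ - 1) x : ↥(LinearMap.ker f)) := by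
      intro x
      have hx : f (x : V) = 0 := x.2
      simp [redN_apply, hA₁, hx]
      module
    have hrk : rk (A₁ - 1) = finrank F ((LinearMap.ker f).map (redN (A - 1) v f)) := by
      rw [rk, ← Submodule.finrank_map_subtype_eq]
      refine congrArg (fun S : Submodule F V => finrank F S) (Submodule.ext fun y => ?_)
      constructor
      · rintro ⟨z, ⟨x, rfl⟩, rfl⟩
        exact ⟨x, x.2, hredN x⟩
      · rintro ⟨x, hx, rfl⟩
        exact ⟨(A₁ - 1) ⟨x, hx⟩, ⟨⟨x, hx⟩, rfl⟩, (hredN ⟨x, hx⟩).symm⟩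
    have hns₁ : ∀ a : F, A₁ ≠ a • 1 := by
      intro a e
      refine hsc (a - 1) (fun h => ?_) (fun h3 => ?_) fun x hx => ?_
      · have : a = 0 := by linear_combination h
        rw [e, this, LinearMap.det_smul, hW, zero_pow (by omega), zero_mul] at hdet₁
        exact zero_ne_one hdet₁
      · rw [e, LinearMap.det_smul, map_one, mul_one, hW, show m = 2 by omega] at hdet₁
        linear_combination hdet₁
      · have := hredN ⟨x, hx⟩
        rw [this, e]
        simp [sub_smul]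
    set w : ↥(LinearMap.ker f) := ⟨A v - v, by simp [hfA, hfv]⟩ with hwdef
    set φ := f.comp (A.comp (LinearMap.ker f).subtype) with hφdef
    obtain ⟨L₁, Y₁, hrel, hL₁, hY₁, hlink⟩ := ih ↥(LinearMap.ker f) hW A₁ hdet₁ hns₁
      (fun h3 => by rw [hrk]; exact hr1 (by omega)) φ w (fun hm0 => ⟨fun e => by
        obtain ⟨x, hx0, hx1⟩ := hφ (by omega)
        refine hx1 ?_
        have := LinearMap.congr_fun e ⟨x, hx0⟩
        rw [hφdef] at this
        simp at this
        simp [this, hx0], fun e => hw0 (by simpa [hwdef] using congrArg Subtype.val e), fun hq2 hrk2 => by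
        exfalso
        have := hr2 hq2 (by omega)
        rw [hrk] at hrk2
        omega⟩)
    have hdeg : (pat m₀ p₀ m).natDegree + 1 = finrank F V := by rw [pat_natDegree hp hd hm, hV]
    obtain ⟨L, Y, hLY, hcL, hcY, hYv, hfL⟩ := glue A v f hfv hfA (c := 1) (pat_monic hp m) hdeg hrel hL₁ hY₁ (by
      by_cases hm0 : m₀ < m
      · obtain ⟨hl1, e, he, hue⟩ := hlink hm0
        refine Or.inr ⟨by rwa [one_smul, one_smul], e, by rw [one_smul, he], ?_⟩
        rw [he]
        exact hue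
      · left
        rw [pat, show m - m₀ = 0 by omega, pow_zero, one_mul]
        exact hp1)
    refine ⟨L, Y, hLY, by rw [pat_succ hm]; exact hcL, by rw [pat_succ hm]; exact hcY, fun _ => ⟨?_, v, ?_, huv⟩⟩
    · rintro ⟨x, hx⟩
      refine hfl ?_
      rw [← hx, LinearMap.sub_apply, Module.End.one_apply, map_sub, hfL, one_mul, sub_self]
    · rw [hYv, one_smul]

/-- The base over fields with at least four elements. -/
theorem base_large {c : F} (hc0 : c ≠ 0) (hc : c ≠ c⁻¹) :
    Fact'.{u} F 2 ((X - C c) * (X - C c⁻¹)) 2 := by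
  intro V _ _ _ hV A hdet hns _ u l _
  obtain ⟨v, hv⟩ : ∃ v : V, ∀ a : F, A v ≠ a • v := by
    by_contra h
    push Not at h
    obtain ⟨a, ha⟩ := LinearMap.exists_eq_smul_id_of_forall_notLinearIndependent (f := A) fun x => by
      intro hli
      obtain ⟨b, hb⟩ := h x
      rw [LinearIndependent.pair_iff] at hli
      exact one_ne_zero (neg_eq_zero.1 (hli b (-1) (by rw [hb, neg_smul, one_smul, add_neg_cancel])).2)
    exact hns a ha
  have hv0 : v ≠ 0 := fun e => hv 0 (by rw [e, map_zero, smul_zero])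
  have hvS : v ∉ Submodule.span F {A v - v} := by
    rw [Submodule.mem_span_singleton]
    rintro ⟨a, ha⟩
    have ha0 : a ≠ 0 := by rintro rfl; exact hv0 (by rw [← ha, zero_smul])
    refine hv (a⁻¹ + 1) ?_
    have h := congrArg (fun y => a⁻¹ • y) ha
    simp only [smul_smul, inv_mul_cancel₀ ha0, one_smul] at h
    rw [add_smul, one_smul]
    exact sub_eq_iff_eq_add.1 h
  obtain ⟨f, hfv, hfS⟩ := exists_fn_one hvS
  have hfA : f (A v) = 1 := by
    have := hfS _ (Submodule.mem_span_singleton_self _)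
    rwa [map_sub, hfv, sub_eq_zero] at this
  have hW : finrank F ↥(LinearMap.ker f) = 1 := by have := finrank_ker_eq_sub_one hfv; omega
  have hred : red A v f hfA = 1 := by
    obtain ⟨a, ha⟩ : ∃ a : F, red A v f hfA = a • 1 := by
      obtain ⟨z, hz0, hz⟩ := finrank_eq_one_iff'.1 hW
      obtain ⟨a, ha⟩ := hz (red A v f hfA z)
      refine ⟨a, LinearMap.ext fun x => ?_⟩
      obtain ⟨b, rfl⟩ := hz x
      rw [map_smul, ← ha, LinearMap.smul_apply, Module.End.one_apply, smul_comm]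
    have := det_red A v f hfv hfA
    rw [hdet, ha, LinearMap.det_smul, map_one, mul_one, hW, pow_one] at this
    rw [ha, this, one_smul]
  have hcyc : Cyc (c⁻¹ • (1 : ↥(LinearMap.ker f) →ₗ[F] ↥(LinearMap.ker f))) (X - C c⁻¹) := by
    obtain ⟨z, hz0, hz⟩ := finrank_eq_one_iff'.1 hW
    refine cyc_of_vector (monic_X_sub_C _) (by rw [natDegree_X_sub_C, hW]) (fun x => ?_) (z := z) fun x => ?_
    · rw [aeval_X_sub_C_apply]; simp
    · obtain ⟨b, rfl⟩ := hz x
      exact ⟨C b, by simp [Module.algebraMap_end_apply]⟩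
  obtain ⟨L, Y, hLY, hcL, hcY, -, -⟩ := glue A v f hfv hfA (c := c) (monic_X_sub_C c⁻¹)
    (by rw [natDegree_X_sub_C, hV]) (L₁ := c⁻¹ • 1) (Y₁ := c⁻¹ • 1)
    (by rw [hred]; rfl) hcyc hcyc (Or.inl (by simpa [sub_eq_zero] using hc))
  refine ⟨L, Y, hLY, ?_, ?_, fun h => absurd h (lt_irrefl 2)⟩
  · rw [pat, Nat.sub_self, pow_zero, one_mul]; exact hcL
  · rw [pat, Nat.sub_self, pow_zero, one_mul]; exact hcY

/-- The base over fields with at most three elements. -/
theorem base_three (hq : Fintype.card F ≤ 3) : Fact'.{u} F 3 (p3 F) 3 := by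
  intro V _ _ _ hV A hdet hns hr u l _
  obtain ⟨L, Y, h1, h2, h3⟩ := base_small hq hV A hdet (hr le_rfl) hns
  refine ⟨L, Y, h1, ?_, ?_, fun h => absurd h (lt_irrefl 3)⟩
  · rw [pat, Nat.sub_self, pow_zero, one_mul]; exact h2
  · rw [pat, Nat.sub_self, pow_zero, one_mul]; exact h3

/-- From a factorisation to a commutator. -/
theorem commRel_of_pair [FiniteDimensional F V] {A L Y : V →ₗ[F] V} {P₀ p : F[X]} (hP₀ : P₀.Monic)
    (hp : p.Monic) (hco : IsCoprime P₀ p) (hnorm : ∀ t : F, t ≠ 0 → ∃ ω, Algebra.norm F (AdjoinRoot.mk p ω) = t)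
    (hdetP : (-1) ^ (P₀ * p).natDegree * (P₀ * p).coeff 0 = (1 : F))
    (hrel : A ∘ₗ Y = L) (hL : Cyc L (P₀ * p)) (hY : Cyc Y (P₀ * p)) : CommRel A := by
  obtain ⟨g, hg⟩ := hL.similar hY
  have hg0 : LinearMap.det (g : V →ₗ[F] V) ≠ 0 := (LinearEquiv.isUnit_det' g).ne_zero
  obtain ⟨ω, hω⟩ := hnorm _ (inv_ne_zero hg0)
  obtain ⟨Z, hZ, hZd⟩ := exists_centralizer_det hP₀ hp hco hL (inv_ne_zero hg0) hω
  refine ⟨L, (g : V →ₗ[F] V) ∘ₗ (Z : V →ₗ[F] V), by rw [hL.det (hP₀.mul hp), hdetP],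
    by rw [LinearMap.det_comp, hZd, mul_inv_cancel₀ hg0], LinearMap.ext fun x => ?_⟩
  show A (g (Z (L x))) = L (g (Z x))
  rw [hZ, hg, ← LinearMap.comp_apply A Y, hrel]

/-- A transvection is a commutator in dimension at least three. -/
theorem commRel_transv [FiniteDimensional F V] (h3 : 3 ≤ finrank F V) {φ : V →ₗ[F] F} {z : V}
    (hφz : φ z = 0) (hz : z ≠ 0) : CommRel (1 + φ.smulRight z) := by
  obtain ⟨y, hy, hyz⟩ : ∃ y, φ y = 0 ∧ y ∉ Submodule.span F {z} := by
    by_contra h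
    push Not at h
    have hle : LinearMap.ker φ ≤ Submodule.span F {z} := fun y hy => h y hy
    have h1 := Submodule.finrank_mono hle
    have h2 : finrank F (Submodule.span F ({z} : Set V)) ≤ 1 := (finrank_span_le_card _).trans (by simp)
    have h4 := φ.finrank_range_add_finrank_ker
    have h5 : finrank F (LinearMap.range φ) ≤ 1 := (Submodule.finrank_le _).trans (finrank_self F).le
    omega
  obtain ⟨ψ, hψy, hψz⟩ := exists_fn_one hyz
  have hψz' : ψ z = 0 := hψz z (Submodule.mem_span_singleton_self z)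
  refine ⟨1 + ψ.smulRight z, 1 + φ.smulRight y, det_transv hψz', det_transv hy, LinearMap.ext fun x => ?_⟩
  simp [hψy, hψz', hy, hφz]
  module

/-- A map with a fixed line outside a complementary invariant hyperplane. -/
theorem commRel_fixed [FiniteDimensional F V] {A : V →ₗ[F] V} {k : V} (hk : A k = k) {f : V →ₗ[F] F}
    (hfk : f k = 1) (hf : ∀ x, f (A x) = f x)
    (h : CommRel (A.restrict (p := LinearMap.ker f) (q := LinearMap.ker f) fun x hx => by
      rw [LinearMap.mem_ker] at hx ⊢; rw [hf, hx])) : CommRel A := by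
  refine (CommRel.prod (V := F) ⟨1, 1, by simp, by simp, rfl⟩ h).conj (A := LinearMap.prodMap (1 : F →ₗ[F] F) _)
    (split k f hfk) fun p => ?_
  simp [map_add, hk]

omit [Fintype F] in
theorem eval_pat_zero {m₀ : ℕ} {p₀ : F[X]} (hd : p₀.natDegree = m₀) (hp : p₀.Monic)
    (h : (-1) ^ m₀ * p₀.coeff 0 = (1 : F)) {m : ℕ} (hm : m₀ ≤ m) :
    (-1) ^ (pat m₀ p₀ m).natDegree * (pat m₀ p₀ m).coeff 0 = (1 : F) := by
  rw [pat_natDegree hp hd hm, coeff_zero_eq_eval_zero, pat, eval_mul, eval_pow, eval_sub, eval_X, eval_C,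
    zero_sub, ← coeff_zero_eq_eval_zero, ← mul_assoc, ← pow_add,
    show m + (m - m₀) = 2 * (m - m₀) + m₀ by omega, pow_add, pow_mul]
  simpa using h

/-- **Thompson's theorem**, in linear language. -/
theorem commRel_of_det_one : ∀ (n : ℕ) (V : Type u) [AddCommGroup V] [Module F V] [FiniteDimensional F V],
    finrank F V = n → 2 ≤ n → (n = 2 → 4 ≤ Fintype.card F) →
    ∀ A : V →ₗ[F] V, LinearMap.det A = 1 → CommRel A := by
  intro n
  induction n using Nat.strong_induction_on with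
  | _ n ih =>
  intro V _ _ _ hV hn2 hq A hdet
  haveI : Finite V := Module.finite_of_finite F
  by_cases hsc : ∃ a : F, A = a • 1
  · obtain ⟨a, rfl⟩ := hsc
    refine commRel_scalar ?_
    rwa [LinearMap.det_smul, map_one, mul_one] at hdet
  push Not at hsc
  have hrkpos : 1 ≤ rk (A - 1) := Nat.one_le_iff_ne_zero.2 fun e =>
    hsc 1 (by rw [one_smul]; exact sub_eq_zero.1 (rk_eq_zero e))
  by_cases hr : rk (A - 1) ≤ 1 ∧ 3 ≤ n
  · obtain ⟨z, hz0, hz⟩ := finrank_eq_one_iff'.1 (show finrank F ↥(LinearMap.range (A - 1)) = 1 by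
      have := hr.1; unfold rk at hrkpos this; omega)
    obtain ⟨z, hzr⟩ := z
    have hz0' : z ≠ 0 := fun e => hz0 (Subtype.ext e)
    obtain ⟨x₀, hx₀⟩ := exists_fn_one (S := (⊥ : Submodule F V)) (by simpa using hz0')
    set φ : V →ₗ[F] F := x₀.comp (A - 1)
    have hN : ∀ x, (A - 1) x = φ x • z := fun x => by
      obtain ⟨b, hb⟩ := hz ⟨(A - 1) x, LinearMap.mem_range_self _ x⟩
      have hb' : b • z = (A - 1) x := congrArg Subtype.val hb
      show _ = x₀ ((A - 1) x) • z
      rw [← hb', map_smul, hx₀.1, smul_eq_mul, mul_one]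
    have hA : A = 1 + φ.smulRight z := LinearMap.ext fun x => by
      rw [LinearMap.add_apply, LinearMap.smulRight_apply, ← hN]
      simp
    have hφz : φ z = 0 := by
      by_contra hne
      set v := (φ z)⁻¹ • z
      have hv : φ v = 1 := by simp [v, inv_mul_cancel₀ hne]
      have hA' : A = (split v φ hv : _ →ₗ[F] V) ∘ₗ low (1 + φ z) (0 : ↥(LinearMap.ker φ)) 1 ∘ₗ
          ((split v φ hv).symm : V →ₗ[F] _) := LinearMap.ext fun x => by
        obtain ⟨p, rfl⟩ := (split v φ hv).surjective x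
        simp only [LinearMap.coe_comp, Function.comp_apply, LinearEquiv.coe_coe, LinearEquiv.symm_apply_apply]
        have hp2 : φ (p.2 : V) = 0 := p.2.2
        rw [hA]
        simp [v, hp2, smul_smul, hne, add_mul]
        match_scalars <;> field_simp <;> ring
      rw [hA', LinearMap.det_conj, det_low, map_one, mul_one] at hdet
      exact hne (by linear_combination hdet)
    rw [hA]
    exact commRel_transv (by omega) hφz hz0'
  have hr2 : 3 ≤ n → 2 ≤ rk (A - 1) := fun h => by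
    by_contra hc
    exact hr ⟨by omega, h⟩
  -- over the field with two elements a small rank leaves a fixed line as a direct summand
  by_cases hsum : Fintype.card F = 2 ∧ rk (A - 1) = 2 ∧ 5 ≤ n
  · obtain ⟨-, hr', hn5⟩ := hsum
    obtain ⟨k, hk, hkR⟩ : ∃ k, A k = k ∧ k ∉ LinearMap.range (A - 1) := by
      by_contra h
      push Not at h
      have hle : LinearMap.ker (A - 1) ≤ LinearMap.range (A - 1) := fun x hx => h x (by
        rw [LinearMap.mem_ker, LinearMap.sub_apply, Module.End.one_apply, sub_eq_zero] at hx; exact hx)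
      have := Submodule.finrank_mono hle
      have := finrank_ker_add (A - 1)
      unfold rk at *
      omega
    obtain ⟨f, hfk, hfR⟩ := exists_fn_one hkR
    have hf : ∀ x, f (A x) = f x := fun x => by
      have := hfR _ (LinearMap.mem_range_self (A - 1) x)
      rwa [LinearMap.sub_apply, Module.End.one_apply, map_sub, sub_eq_zero] at this
    refine commRel_fixed hk hfk hf (ih (n - 1) (by omega) _ (by have := finrank_ker_eq_sub_one hfk; omega)
      (by omega) (fun h => by omega) _ ?_)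
    set R := A.restrict (p := LinearMap.ker f) (q := LinearMap.ker f) fun x hx => by
      rw [LinearMap.mem_ker] at hx ⊢; rw [hf, hx]
    have hA' : A = (split k f hfk : _ →ₗ[F] V) ∘ₗ LinearMap.prodMap (1 : F →ₗ[F] F) R ∘ₗ
        ((split k f hfk).symm : V →ₗ[F] _) := LinearMap.ext fun x => by
      obtain ⟨p, rfl⟩ := (split k f hfk).surjective x
      simp only [LinearMap.coe_comp, Function.comp_apply, LinearEquiv.coe_coe, LinearEquiv.symm_apply_apply]
      simp [R, hk]
    rw [hA', LinearMap.det_conj, LinearMap.det_prodMap, map_one, one_mul] at hdet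
    exact hdet
  haveI : Nontrivial V := nontrivial_of_finrank_pos (R := F) (by omega)
  -- dummy data for the recursion
  obtain ⟨l, hl, hl4⟩ : ∃ l : V, l ≠ 0 ∧ (Fintype.card F = 2 → rk (A - 1) = 2 → n = 4 ∧ (A - 1) l = 0 ∨ n ≤ 3) := by
    by_cases h : Fintype.card F = 2 ∧ rk (A - 1) = 2 ∧ n = 4
    · obtain ⟨x, hx, hx0⟩ := Submodule.exists_mem_ne_zero_of_ne_bot (p := LinearMap.ker (A - 1)) fun e => by
        have := finrank_ker_add (A - 1)
        rw [e, finrank_bot] at this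
        omega
      exact ⟨x, hx0, fun _ _ => Or.inl ⟨h.2.2, hx⟩⟩
    · obtain ⟨x, hx⟩ := exists_ne (0 : V)
      refine ⟨x, hx, fun a b => Or.inr ?_⟩
      by_contra hc
      have : n ≠ 4 := fun e => h ⟨a, b, e⟩
      exact hsum ⟨a, b, by omega⟩
  obtain ⟨u, hu, -⟩ := exists_fn_one (S := (⊥ : Submodule F V)) (v := l) (by simpa using hl)
  have hu0 : u ≠ 0 := fun e => by simp [e] at hu
  by_cases hq4 : 4 ≤ Fintype.card F
  · obtain ⟨c, hc0, hc1, hc2⟩ : ∃ c : F, c ≠ 0 ∧ c ≠ 1 ∧ c ≠ -1 := by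
      classical
      by_contra h
      push Not at h
      have h3 : (Finset.univ : Finset F) ⊆ {0, 1, -1} := fun x _ => by
        by_cases hx : x = 0
        · simp [hx]
        · by_cases hx' : x = 1
          · simp [hx']
          · simp [h x hx hx']
      have := (Finset.card_le_card h3).trans Finset.card_le_three
      rw [Finset.card_univ] at this
      omega
    have hcc : c ≠ c⁻¹ := fun e => by
      have h1 : c * c = 1 := by nth_rewrite 2 [e]; exact mul_inv_cancel₀ hc0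
      rcases mul_self_eq_one_iff.1 h1 with h | h
      · exact hc1 h
      · exact hc2 h
    set p₀ := (X - C c) * (X - C c⁻¹) with hp₀def
    have hp : p₀.Monic := (monic_X_sub_C c).mul (monic_X_sub_C _)
    have hd : p₀.natDegree = 2 := by
      rw [hp₀def, (monic_X_sub_C c).natDegree_mul (monic_X_sub_C _), natDegree_X_sub_C, natDegree_X_sub_C]
    have hp1 : p₀.eval 1 ≠ 0 := by
      simp only [hp₀def, eval_mul, eval_sub, eval_X, eval_C]
      refine mul_ne_zero (sub_ne_zero.2 (Ne.symm hc1)) (sub_ne_zero.2 fun e => hc1 ?_)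
      rw [← inv_inv c, ← e, inv_one]
    obtain ⟨L, Y, hrel, hL, hY, -⟩ := recursion hp hd hp1 le_rfl (Or.inl hq4) (base_large hc0 hcc) hn2 V hV A hdet
      hsc hr2 u l fun _ => ⟨hu0, hl, fun h => by omega⟩
    have hP : pat 2 p₀ n = ((X - C 1) ^ (n - 2) * (X - C c⁻¹)) * (X - C c) := by
      rw [pat, hp₀def]; ring
    have hdetP := eval_pat_zero (m := n) hd hp (by
      rw [hp₀def, coeff_zero_eq_eval_zero]; simp [mul_inv_cancel₀ hc0]) hn2
    rw [hP] at hL hY hdetP
    refine commRel_of_pair (((monic_X_sub_C (1 : F)).pow _).mul (monic_X_sub_C _)) (monic_X_sub_C c) ?_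
      (fun t _ => ⟨C t, by rw [norm_C (monic_X_sub_C c), natDegree_X_sub_C, pow_one]⟩) hdetP hrel hL hY
    refine IsCoprime.mul_left (IsCoprime.pow_left ?_) ?_
    · exact isCoprime_X_sub_C_of_isUnit_sub (sub_ne_zero.2 (Ne.symm hc1)).isUnit
    · exact isCoprime_X_sub_C_of_isUnit_sub (sub_ne_zero.2 hcc.symm).isUnit
  · have hn3 : 3 ≤ n := by
      by_contra h
      exact hq4 (hq (by omega))
    have hq3 : Fintype.card F ≤ 3 := by omega
    obtain ⟨L, Y, hrel, hL, hY, -⟩ := recursion p3_monic p3_natDegree p3_eval_one (by norm_num) (Or.inr le_rfl)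
      (base_three hq3) hn3 V hV A hdet hsc hr2 u l fun hlt => ⟨hu0, hl, fun a b => (hl4 a b).resolve_right
        (by omega)⟩
    have hdetP := eval_pat_zero (m := n) (p3_natDegree (F := F)) p3_monic (by rw [p3_coeff_zero]; ring) hn3
    exact commRel_of_pair ((monic_X_sub_C (1 : F)).pow _) p3_monic
      (IsCoprime.pow_left ((irreducible_X_sub_C (1 : F)).coprime_iff_not_dvd.2
        fun h => p3_eval_one (dvd_iff_isRoot.1 h)))
      (fun t _ => exists_norm_eq p3_monic (p3_irreducible hq3) t) hdetP hrel hL hY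

end Cfsg.Agent.SLComm
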