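import Cfsg.Agent.SLComm.Count
import Mathlib.LinearAlgebra.FiniteDimensional.Lemmas
import Mathlib.Tactic

/-!
The vector of the commutator recursion for `SL_n` (owner: helper16): for `N = A - 1` choose `v` with `u v = 1`
outside all subspaces which could make the reduced map degenerate.
-/

set_option autoImplicit false

namespace Cfsg.Agent.SLComm

open Module Submodule LinearMap

variable {F : Type*} [Field F] {V : Type*} [AddCommGroup V] [Module F V] [FiniteDimensional F V]

/-- Rank of a linear map. -/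
noncomputable def rk (N : V →ₗ[F] V) : ℕ := finrank F (range N)

/-- `μ` is a value for which the reduced map might be `μ` times the identity. -/
def InT (n : ℕ) (N : V →ₗ[F] V) (μ : F) : Prop :=
  μ ≠ 0 ∧ μ ≠ -1 ∧ rk (N - μ • 1) ≤ 2 ∧ (n = 3 → (1 + μ) ^ 2 = 1)

omit [FiniteDimensional F V] in
theorem sub_smul_apply' (N : V →ₗ[F] V) (μ : F) (x : V) : (N - μ • 1) x = N x - μ • x := by simp

omit [FiniteDimensional F V] in
theorem mem_ker_sub_smul {N : V →ₗ[F] V} {μ : F} {x : V} :
    x ∈ ker (N - μ • 1) ↔ N x = μ • x := by simp [sub_eq_zero]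

omit [FiniteDimensional F V] in
theorem mem_range_of_eigen {N : V →ₗ[F] V} {μ ν : F} {x : V} (h : N x = ν • x) (hne : ν ≠ μ) :
    x ∈ range (N - μ • 1) := by
  refine ⟨(ν - μ)⁻¹ • x, ?_⟩
  rw [map_smul, sub_smul_apply', h, ← sub_smul, smul_smul, inv_mul_cancel₀ (sub_ne_zero.2 hne), one_smul]

omit [FiniteDimensional F V] in
theorem mem_range_of_eigen' {N : V →ₗ[F] V} {ν : F} {x : V} (h : N x = ν • x) (hne : ν ≠ 0) :
    x ∈ range N :=
  ⟨ν⁻¹ • x, by rw [map_smul, h, smul_smul, inv_mul_cancel₀ hne, one_smul]⟩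

theorem finrank_ker_add (N : V →ₗ[F] V) : finrank F (ker N) + rk N = finrank F V := by
  rw [add_comm]; exact N.finrank_range_add_finrank_ker

theorem finrank_preimage_span_le (N : V →ₗ[F] V) (l : V) :
    finrank F ((span F {l}).comap N) + rk N ≤ finrank F V + 1 := by
  set B := (span F {l}).comap N
  have h := (N.domRestrict B).finrank_range_add_finrank_ker
  have h1 : finrank F (range (N.domRestrict B)) ≤ 1 := by
    refine le_trans (Submodule.finrank_mono ?_) (finrank_span_le_card ({l} : Set V) |>.trans (by simp))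
    rintro _ ⟨⟨x, hx⟩, rfl⟩
    exact hx
  have h2 : finrank F (ker (N.domRestrict B)) ≤ finrank F (ker N) := by
    rw [← Submodule.finrank_map_subtype_eq]
    refine Submodule.finrank_mono ?_
    rintro _ ⟨x, hx, rfl⟩
    exact hx
  have := finrank_ker_add N
  omega

omit [FiniteDimensional F V] in
theorem preimage_span_eq_ker {N : V →ₗ[F] V} {l : V} (hl : l ∉ range N) :
    (span F {l}).comap N = ker N := by
  ext x
  simp only [mem_comap, mem_span_singleton, LinearMap.mem_ker]
  refine ⟨fun ⟨c, hc⟩ => ?_, fun h => ⟨0, by rw [zero_smul, h]⟩⟩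
  by_contra hx
  have hc0 : c ≠ 0 := by rintro rfl; exact hx (by rw [← hc, zero_smul])
  exact hl ⟨c⁻¹ • x, by rw [map_smul, ← hc, smul_smul, inv_mul_cancel₀ hc0, one_smul]⟩

theorem finrank_sup_span_le (S : Submodule F V) (l : V) :
    finrank F ↥(S ⊔ span F {l}) ≤ finrank F S + 1 := by
  have h := Submodule.finrank_sup_add_finrank_inf_eq S (span F {l})
  have h1 : finrank F (span F ({l} : Set V)) ≤ 1 := (finrank_span_le_card _).trans (by simp)
  omega

theorem rk_eq_zero {N : V →ₗ[F] V} (h : rk N = 0) : N = 0 :=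
  range_eq_bot.1 (Submodule.finrank_eq_zero.1 h)

/-- Two exceptional values force dimension four and a full decomposition. -/
theorem inT_two {n : ℕ} (hn : finrank F V = n) (hn3 : 3 ≤ n) {N : V →ₗ[F] V} {μ₁ μ₂ : F}
    (h1 : InT n N μ₁) (h2 : InT n N μ₂) (hne : μ₁ ≠ μ₂) :
    n = 4 ∧ ker (N - μ₁ • 1) ⊔ ker (N - μ₂ • 1) = ⊤ := by
  have hd : ker (N - μ₁ • 1) ⊓ ker (N - μ₂ • 1) = ⊥ := by
    rw [Submodule.eq_bot_iff]
    rintro x ⟨ha, hb⟩
    rw [SetLike.mem_coe, mem_ker_sub_smul] at ha hb
    have hx : (μ₁ - μ₂) • x = 0 := by rw [sub_smul, ← ha, ← hb, sub_self]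
    exact (smul_eq_zero.1 hx).resolve_left (sub_ne_zero.2 hne)
  have hs := Submodule.finrank_sup_add_finrank_inf_eq (ker (N - μ₁ • 1)) (ker (N - μ₂ • 1))
  rw [hd, finrank_bot, add_zero] at hs
  have hle := Submodule.finrank_le (ker (N - μ₁ • 1) ⊔ ker (N - μ₂ • 1))
  have a1 := finrank_ker_add (N - μ₁ • 1)
  have a2 := finrank_ker_add (N - μ₂ • 1)
  have b1 := h1.2.2.1
  have b2 := h2.2.2.1
  have hn' : n ≠ 3 := fun h => hne (by
    have c1 := h1.2.2.2 h
    have c2 := h2.2.2.2 h
    have e1 : μ₁ * (μ₁ + 2) = 0 := by linear_combination c1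
    have e2 : μ₂ * (μ₂ + 2) = 0 := by linear_combination c2
    have d1 := (mul_eq_zero.1 e1).resolve_left h1.1
    have d2 := (mul_eq_zero.1 e2).resolve_left h2.1
    linear_combination d1 - d2)
  refine ⟨by omega, ?_⟩
  exact Submodule.eq_top_of_finrank_eq (by omega)

omit [FiniteDimensional F V] in
theorem eigen_mem_of_sup_top {N : V →ₗ[F] V} {μ₁ μ₂ : F} (hne : μ₁ ≠ μ₂)
    (htop : ker (N - μ₁ • 1) ⊔ ker (N - μ₂ • 1) = ⊤) {x : V} {ν : F} (hx : N x = ν • x) (hx0 : x ≠ 0) :
    ν = μ₁ ∨ ν = μ₂ := by
  obtain ⟨a, ha, b, hb, rfl⟩ := Submodule.mem_sup.1 (htop ▸ Submodule.mem_top : x ∈ _)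
  rw [mem_ker_sub_smul] at ha hb
  by_contra h
  push Not at h
  have e : (μ₁ - ν) • a = (ν - μ₂) • b := by
    rw [map_add, ha, hb] at hx
    linear_combination (norm := module) hx
  have e2 := congrArg N e
  rw [map_smul, map_smul, ha, hb, smul_comm, e, smul_smul, smul_smul] at e2
  have hb0 : b = 0 := by
    have hx' : (μ₁ * (ν - μ₂) - (ν - μ₂) * μ₂) • b = 0 := by rw [sub_smul, e2, sub_self]
    refine (smul_eq_zero.1 hx').resolve_left ?_
    rw [show μ₁ * (ν - μ₂) - (ν - μ₂) * μ₂ = (ν - μ₂) * (μ₁ - μ₂) by ring]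
    exact mul_ne_zero (sub_ne_zero.2 h.2) (sub_ne_zero.2 hne)
  rw [hb0, smul_zero] at e
  have ha0 := (smul_eq_zero.1 e).resolve_left (sub_ne_zero.2 (Ne.symm h.1))
  exact hx0 (by rw [ha0, hb0, add_zero])

variable [Fintype F] [Finite V]

set_option maxHeartbeats 1000000 in
/-- The vector of the recursion. -/
theorem exists_vec {n : ℕ} (hn : finrank F V = n) (hn3 : 3 ≤ n) (hq : 4 ≤ Fintype.card F ∨ 4 ≤ n)
    (N : V →ₗ[F] V) (hinj : ∀ x, N x = -x → x = 0) (hr : 2 ≤ rk N) (hns : ∀ a : F, N ≠ a • 1)
    {u : V →ₗ[F] F} (hu : u ≠ 0) {l : V} (hl : l ≠ 0) :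
    ∃ v : V, u v ≠ 0 ∧ v ∉ (span F {l}).comap N ∧ (∀ ν : F, N v = ν • v → False) ∧
      (rk N ≤ 2 ∨ (rk N ≤ 4 ∧ rk N < n) → v ∉ range N) ∧ (∀ μ, InT n N μ → v ∉ range (N - μ • 1)) ∧
      (Fintype.card F = 2 → rk N = 3 → 5 ≤ n → v ∉ range N ⊔ span F {l} ∧ v ∉ ker N ⊔ span F {l}) := by
  classical
  set q := Fintype.card F with hqdef
  have hq2 : 2 ≤ q := Fintype.one_lt_card
  have hVc : Nat.card V = q ^ n := by
    rw [Module.natCard_eq_pow_finrank (K := F), Nat.card_eq_fintype_card, hn]
  have hkN := finrank_ker_add N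
  have hrn : rk N ≤ n := hn ▸ Submodule.finrank_le _
  have hB := finrank_preimage_span_le N l
  have cB : Nat.card ↥((span F {l}).comap N) ≤ q ^ (n - rk N + 1) := card_submodule_le (by omega)
  have cB' : Nat.card ↥((span F {l}).comap N) ≤ q ^ (n - 1) := card_submodule_le (by omega)
  have cN : Nat.card ↥(range N) ≤ q ^ rk N := card_submodule_le le_rfl
  have cR : ∀ μ, InT n N μ → Nat.card ↥(range (N - μ • 1)) ≤ q ^ 2 := fun μ h => card_submodule_le h.2.2.1
  have cK : ∀ μ : F, Nat.card ↥(ker (N - μ • 1)) ≤ q ^ (n - 1) := fun μ => by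
    refine card_submodule_le ?_
    have := finrank_ker_add (N - μ • 1)
    have h0 : rk (N - μ • 1) ≠ 0 := fun h => hns μ (sub_eq_zero.1 (rk_eq_zero h))
    omega
  have pw : ∀ a b : ℕ, a ≤ b → q ^ a ≤ q ^ b := fun a b h => Nat.pow_le_pow_right (by omega) h
  have pws : ∀ a : ℕ, a + 1 ≤ n → q * q ^ a ≤ q ^ n := fun a h => by
    rw [← pow_succ']; exact pw _ _ h
  have mem_ker0 : ∀ {v : V}, N v = (0 : F) • v → v ∈ (span F {l}).comap N := fun {v} h => by
    rw [mem_comap, h, zero_smul]; exact zero_mem _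
  have notneg : ∀ {v : V}, v ≠ 0 → ∀ {ν : F}, N v = ν • v → ν ≠ -1 := fun {v} hv {ν} h e =>
    hv (hinj v (by rw [h, e, neg_one_smul]))
  by_cases htwo : ∃ μ₁ μ₂, InT n N μ₁ ∧ InT n N μ₂ ∧ μ₁ ≠ μ₂
  · -- two exceptional values
    obtain ⟨μ₁, μ₂, h1, h2, hne⟩ := htwo
    obtain ⟨hn4, htop⟩ := inT_two hn hn3 h1 h2 hne
    have hker : ker N = ⊥ := by
      rw [Submodule.eq_bot_iff]
      intro x hx
      by_contra hx0
      rcases eigen_mem_of_sup_top hne htop (show N x = (0 : F) • x by rw [zero_smul]; exact hx) hx0 with h | h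
      · exact h1.1 h.symm
      · exact h2.1 h.symm
    have hr4 : rk N = 4 := by rw [hker, finrank_bot] at hkN; omega
    have hμ : ∀ μ, InT n N μ → μ = μ₁ ∨ μ = μ₂ := fun μ h => by
      by_contra hc
      push Not at hc
      have hlt : 0 < finrank F (ker (N - μ • 1)) := by
        have := finrank_ker_add (N - μ • 1)
        have := h.2.2.1
        omega
      obtain ⟨x, hx, hx0⟩ := Submodule.exists_mem_ne_zero_of_ne_bot (p := ker (N - μ • 1))
        (fun e => by rw [e, finrank_bot] at hlt; omega)
      rcases eigen_mem_of_sup_top hne htop (mem_ker_sub_smul.1 hx) hx0 with e | e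
      · exact hc.1 e
      · exact hc.2 e
    obtain ⟨v, hv1, hv⟩ := exists_avoid hu
      [(span F {l}).comap N, range (N - μ₁ • 1), range (N - μ₂ • 1)] (by
        simp only [List.map_cons, List.map_nil, List.sum_cons, List.sum_nil, add_zero]
        have hb : Nat.card ↥((span F {l}).comap N) ≤ q ^ 1 := cB.trans (pw _ _ (by omega))
        rw [hVc, hn4]
        have := cR _ h1; have := cR _ h2
        nlinarith [pw 1 2 (by omega), pw 2 4 (by omega), Nat.mul_le_mul hq2 hq2,
          show q ^ 4 = q ^ 2 * q ^ 2 by ring, Nat.mul_le_mul_left (q ^ 2) (Nat.mul_le_mul hq2 hq2)])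
    have hv0 : v ≠ 0 := fun e => by simp [e] at hv1
    simp only [List.forall_mem_cons] at hv
    refine ⟨v, by rw [hv1]; exact one_ne_zero, hv.1, fun ν h => ?_, fun h => by omega,
      fun μ h => by rcases hμ μ h with rfl | rfl; exacts [hv.2.1, hv.2.2.1], fun _ h => by omega⟩
    rcases eigen_mem_of_sup_top hne htop h hv0 with e | e
    · exact hv.2.2.1 (mem_range_of_eigen h (e ▸ hne))
    · exact hv.2.1 (mem_range_of_eigen h (e ▸ hne.symm))
  push Not at htwo
  by_cases hslot : rk N ≤ 2 ∨ (rk N ≤ 4 ∧ rk N < n)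
  · -- the range of `N` is avoided
    have hrn' : rk N < n := by omega
    have eig : ∀ {v : V}, v ∉ (span F {l}).comap N → v ∉ range N → ∀ ν : F, N v = ν • v → False :=
      fun hB hR ν h => by
        by_cases h0 : ν = 0
        · subst h0; exact hB (mem_ker0 h)
        · exact hR (mem_range_of_eigen' h h0)
    by_cases hμ : ∃ μ, InT n N μ
    · obtain ⟨μ, hμ⟩ := hμ
      have hq3 : 3 ≤ q := by
        by_contra hc
        have : q = 2 := by omega
        have h2 : ∀ x : F, x = 0 ∨ x = 1 := fun x => by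
          by_contra hx
          push Not at hx
          have : ({0, 1, x} : Finset F).card ≤ q := Finset.card_le_univ _
          rw [Finset.card_eq_three.2 ⟨0, 1, x, zero_ne_one, Ne.symm hx.1, Ne.symm hx.2, rfl⟩] at this
          omega
        rcases h2 μ with e | e
        · exact hμ.1 e
        · rcases h2 (-1) with e' | e'
          · simp at e'
          · exact hμ.2.1 (e.trans e'.symm)
      obtain ⟨v, hv1, hv⟩ := exists_avoid hu
        [(span F {l}).comap N, range N, range (N - μ • 1)] (by
          simp only [List.map_cons, List.map_nil, List.sum_cons, List.sum_nil, add_zero]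
          rw [hVc]
          have h2 := cR _ hμ
          rcases Nat.lt_or_ge n 4 with h4 | h4
          · obtain rfl : n = 3 := by omega
            have hq4 : 4 ≤ q := by omega
            have : Nat.card ↥(range N) ≤ q ^ 2 := cN.trans (pw _ _ (by omega))
            rw [show (3 : ℕ) - 1 = 2 from rfl] at cB'
            nlinarith [cB', show q ^ 3 = q * q ^ 2 by ring, Nat.mul_le_mul_right (q ^ 2) hq4,
              pow_pos (show 0 < q by omega) 2]
          · have e1 : q ^ n = q * q ^ (n - 1) := by rw [← pow_succ']; congr 1; omega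
            have e2 : q ^ (n - 1) = q * q ^ (n - 2) := by rw [← pow_succ']; congr 1; omega
            have e3 : q ^ 3 = q * q ^ 2 := by ring
            have p2 : q ^ 2 ≤ q ^ (n - 2) := pw _ _ (by omega)
            rcases Nat.lt_or_ge (rk N) 3 with hr3 | hr3
            · have : Nat.card ↥(range N) ≤ q ^ 2 := cN.trans (pw _ _ (by omega))
              nlinarith [cB', pow_pos (show 0 < q by omega) (n - 1), Nat.mul_le_mul_right (q ^ (n - 2)) hq3]
            · have hb : Nat.card ↥((span F {l}).comap N) ≤ q ^ (n - 2) := cB.trans (pw _ _ (by omega))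
              have hc : Nat.card ↥(range N) ≤ q ^ (n - 1) := cN.trans (pw _ _ (by omega))
              nlinarith [pow_pos (show 0 < q by omega) (n - 2), Nat.mul_le_mul_right (q ^ (n - 2)) hq3,
                Nat.mul_le_mul_right (q ^ (n - 1)) hq3])
      simp only [List.forall_mem_cons] at hv
      exact ⟨v, by rw [hv1]; exact one_ne_zero, hv.1, eig hv.1 hv.2.1, fun _ => hv.2.1,
        fun μ' h' => htwo _ _ hμ h' ▸ hv.2.2.1, fun h => by omega⟩
    push Not at hμ
    by_cases hsp : q = 2 ∧ rk N = 3 ∧ 5 ≤ n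
    · obtain ⟨hq', hr', hn5⟩ := hsp
      obtain ⟨v, hv1, hv⟩ := exists_avoid hu
        [(span F {l}).comap N, range N ⊔ span F {l}, ker N ⊔ span F {l}] (by
          simp only [List.map_cons, List.map_nil, List.sum_cons, List.sum_nil, add_zero]
          rw [hVc]
          have cE : Nat.card ↥(ker N ⊔ span F {l}) ≤ q ^ (n - 2) :=
            card_submodule_le ((finrank_sup_span_le _ _).trans (by omega))
          obtain ⟨k, hk⟩ : ∃ k, n = k + 5 := ⟨n - 5, by omega⟩
          have hpos : 0 < 2 ^ k := pow_pos (by omega) k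
          have i1 : n - 2 = k + 3 := by omega
          have i2 : n - 3 = k + 2 := by omega
          by_cases hlR : l ∈ range N
          · have h1 : range N ⊔ span F {l} = range N :=
              sup_eq_left.2 (by rwa [span_singleton_le_iff_mem])
            rw [h1]
            have hb : Nat.card ↥((span F {l}).comap N) ≤ q ^ (n - 2) := cB.trans (pw _ _ (by omega))
            rw [hq'] at hb cN cE ⊢
            rw [i1] at hb cE
            rw [hr'] at cN
            rw [hk]
            simp only [pow_add] at hb cN cE ⊢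
            omega
          · have hb : Nat.card ↥((span F {l}).comap N) ≤ q ^ (n - 3) := by
              rw [preimage_span_eq_ker hlR]; exact card_submodule_le (by omega)
            have hc : Nat.card ↥(range N ⊔ span F {l}) ≤ q ^ 4 :=
              card_submodule_le ((finrank_sup_span_le _ _).trans (by unfold rk at hr'; omega))
            rw [hq'] at hb hc cE ⊢
            rw [i2] at hb
            rw [i1] at cE
            rw [hk]
            simp only [pow_add] at hb hc cE ⊢
            omega)
      simp only [List.forall_mem_cons] at hv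
      have hR : v ∉ range N := fun h => hv.2.1 (mem_sup_left h)
      exact ⟨v, by rw [hv1]; exact one_ne_zero, hv.1, eig hv.1 hR, fun _ => hR,
        fun μ h => absurd h (hμ μ), fun _ _ _ => ⟨hv.2.1, hv.2.2.1⟩⟩
    obtain ⟨v, hv1, hv⟩ := exists_avoid hu [(span F {l}).comap N, range N] (by
      simp only [List.map_cons, List.map_nil, List.sum_cons, List.sum_nil, add_zero]
      rw [hVc]
      have e1 : q ^ n = q * q ^ (n - 1) := by rw [← pow_succ']; congr 1; omega
      have e2 : q ^ (n - 1) = q * q ^ (n - 2) := by rw [← pow_succ']; congr 1; omega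
      have p2 := pow_pos (show 0 < q by omega) (n - 2)
      rcases Nat.lt_or_ge (rk N) 3 with hr3 | hr3
      · rcases Nat.lt_or_ge n 4 with h4 | h4
        · obtain rfl : n = 3 := by omega
          have : Nat.card ↥(range N) ≤ q ^ 2 := cN.trans (pw _ _ (by omega))
          have hq4 : 4 ≤ q := by omega
          rw [show (3 : ℕ) - 1 = 2 from rfl] at cB'
          nlinarith [cB', show q ^ 3 = q * q ^ 2 by ring, Nat.mul_le_mul_right (q ^ 2) hq4,
            pow_pos (show 0 < q by omega) 2]
        · have : Nat.card ↥(range N) ≤ q ^ (n - 2) := cN.trans (pw _ _ (by omega))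
          nlinarith [cB', Nat.mul_le_mul_right (q ^ (n - 2)) hq2, Nat.mul_le_mul_right (q ^ (n - 1)) hq2]
      · have hb : Nat.card ↥((span F {l}).comap N) ≤ q ^ (n - 2) := cB.trans (pw _ _ (by omega))
        have hc : Nat.card ↥(range N) ≤ q ^ (n - 1) := cN.trans (pw _ _ (by omega))
        nlinarith [Nat.mul_le_mul_right (q ^ (n - 2)) hq2, Nat.mul_le_mul_right (q ^ (n - 1)) hq2])
    simp only [List.forall_mem_cons] at hv
    exact ⟨v, by rw [hv1]; exact one_ne_zero, hv.1, eig hv.1 hv.2.1, fun _ => hv.2.1,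
      fun μ h => absurd h (hμ μ), fun a b c => absurd ⟨a, b, c⟩ hsp⟩
  push Not at hslot
  have hr3 : 3 ≤ rk N := by omega
  have hb : Nat.card ↥((span F {l}).comap N) ≤ q ^ (n - 2) := cB.trans (pw _ _ (by omega))
  have e1 : q ^ n = q * q ^ (n - 1) := by rw [← pow_succ']; congr 1; omega
  have e2 : q ^ (n - 1) = q * q ^ (n - 2) := by rw [← pow_succ']; congr 1; omega
  have p2 := pow_pos (show 0 < q by omega) (n - 2)
  have noslot : ¬ (rk N ≤ 2 ∨ (rk N ≤ 4 ∧ rk N < n)) := by omega
  have nosp : q = 2 → rk N = 3 → 5 ≤ n → False := fun _ _ _ => by omega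
  by_cases hμ : ∃ μ, InT n N μ
  · obtain ⟨μ, hμ⟩ := hμ
    have hq3 : 3 ≤ q := by
      by_contra hc
      have h2 : ∀ x : F, x = 0 ∨ x = 1 := fun x => by
        by_contra hx
        push Not at hx
        have : ({0, 1, x} : Finset F).card ≤ q := Finset.card_le_univ _
        rw [Finset.card_eq_three.2 ⟨0, 1, x, zero_ne_one, Ne.symm hx.1, Ne.symm hx.2, rfl⟩] at this
        omega
      rcases h2 μ with e | e
      · exact hμ.1 e
      · rcases h2 (-1) with e' | e'
        · simp at e'
        · exact hμ.2.1 (e.trans e'.symm)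
    obtain ⟨v, hv1, hv⟩ := exists_avoid hu
      [(span F {l}).comap N, range (N - μ • 1), ker (N - μ • 1)] (by
        simp only [List.map_cons, List.map_nil, List.sum_cons, List.sum_nil, add_zero]
        rw [hVc]
        have h2 := cR _ hμ
        have h3 := cK μ
        rcases Nat.lt_or_ge n 4 with h4 | h4
        · obtain rfl : n = 3 := by omega
          have hq4 : 4 ≤ q := by omega
          rw [show (3 : ℕ) - 1 = 2 from rfl] at cB' h3
          nlinarith [cB', show q ^ 3 = q * q ^ 2 by ring, Nat.mul_le_mul_right (q ^ 2) hq4,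
            pow_pos (show 0 < q by omega) 2]
        · have p3 : q ^ 2 ≤ q ^ (n - 2) := pw _ _ (by omega)
          nlinarith [Nat.mul_le_mul_right (q ^ (n - 2)) hq3, Nat.mul_le_mul_right (q ^ (n - 1)) hq3])
    simp only [List.forall_mem_cons] at hv
    refine ⟨v, by rw [hv1]; exact one_ne_zero, hv.1, fun ν h => ?_, fun h => absurd h noslot,
      fun μ' h' => htwo _ _ hμ h' ▸ hv.2.1, fun a b c => (nosp a b c).elim⟩
    by_cases he : ν = μ
    · exact hv.2.2.1 (mem_ker_sub_smul.2 (he ▸ h))
    · exact hv.2.1 (mem_range_of_eigen h he)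
  push Not at hμ
  have hT : ∀ v : V, ∀ μ, InT n N μ → v ∉ range (N - μ • 1) := fun v μ h => absurd h (hμ μ)
  by_cases hq4 : 4 ≤ q
  · obtain ⟨v₀, hv1, hv⟩ := exists_avoid hu [(span F {l}).comap N] (by
      simp only [List.map_cons, List.map_nil, List.sum_cons, List.sum_nil, add_zero]
      rw [hVc]
      nlinarith [Nat.mul_le_mul_right (q ^ (n - 2)) hq2, Nat.mul_le_mul_right (q ^ (n - 1)) hq2])
    simp only [List.forall_mem_cons] at hv
    by_cases he : ∃ ν : F, N v₀ = ν • v₀
    swap
    · push Not at he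
      exact ⟨v₀, by rw [hv1]; exact one_ne_zero, hv.1, fun ν h => he ν h, fun h => absurd h noslot,
        hT v₀, fun a b c => (nosp a b c).elim⟩
    obtain ⟨a, ha⟩ := he
    obtain ⟨y, hy1, hy⟩ := exists_avoid hu [(span F {l}).comap N, ker (N - a • 1)] (by
      simp only [List.map_cons, List.map_nil, List.sum_cons, List.sum_nil, add_zero]
      rw [hVc]
      have := cK a
      nlinarith [cB', pow_pos (show 0 < q by omega) (n - 1), Nat.mul_le_mul_right (q ^ (n - 1)) hq4])
    simp only [List.forall_mem_cons] at hy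
    by_cases he : ∃ ν : F, N y = ν • y
    swap
    · push Not at he
      exact ⟨y, by rw [hy1]; exact one_ne_zero, hy.1, fun ν h => he ν h, fun h => absurd h noslot,
        hT y, fun a b c => (nosp a b c).elim⟩
    obtain ⟨b, hb'⟩ := he
    have hab : a ≠ b := fun e => hy.2.1 (mem_ker_sub_smul.2 (e ▸ hb'))
    obtain ⟨t, ht0, ht1⟩ : ∃ t : F, t ≠ 0 ∧ t ≠ -1 := by
      by_contra hc
      push Not at hc
      have h3 : (Finset.univ : Finset F) ⊆ {0, -1} := fun x _ => by
        by_cases hx : x = 0
        · simp [hx]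
        · simp [hc x hx]
      have := (Finset.card_le_card h3).trans Finset.card_le_two
      rw [Finset.card_univ] at this
      omega
    obtain ⟨s, hs0, hs1, hsB⟩ : ∃ s : F, s ≠ 0 ∧ s ≠ -1 ∧ v₀ + s • y ∉ (span F {l}).comap N := by
      by_cases h1 : v₀ + t • y ∈ (span F {l}).comap N
      · obtain ⟨t', h0', h1', h2'⟩ : ∃ t' : F, t' ≠ 0 ∧ t' ≠ -1 ∧ t' ≠ t := by
          by_contra hc
          push Not at hc
          have h3 : (Finset.univ : Finset F) ⊆ {0, -1, t} := fun x _ => by
            by_cases hx : x = 0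
            · simp [hx]
            · by_cases hx' : x = -1
              · simp [hx']
              · simp [hc x hx hx']
          have := (Finset.card_le_card h3).trans Finset.card_le_three
          rw [Finset.card_univ] at this
          omega
        refine ⟨t', h0', h1', fun h2 => hy.1 ?_⟩
        have h3 := sub_mem h2 h1
        rw [add_sub_add_left_eq_sub, ← sub_smul] at h3
        simpa [smul_smul, inv_mul_cancel₀ (sub_ne_zero.2 h2')] using
          Submodule.smul_mem _ (t' - t)⁻¹ h3
      · exact ⟨t, ht0, ht1, h1⟩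
    refine ⟨v₀ + s • y, ?_, hsB, fun c hc => ?_, fun h => absurd h noslot, hT _,
      fun a b c => (nosp a b c).elim⟩
    · rw [map_add, map_smul, hv1, hy1, smul_eq_mul, mul_one]
      exact fun h => hs1 (eq_neg_of_add_eq_zero_right h)
    · have e : (a - c) • v₀ = (s * (c - b)) • y := by
        rw [map_add, map_smul, ha, hb'] at hc
        linear_combination (norm := module) hc
      by_cases hca : a = c
      · rw [hca, sub_self, zero_smul] at e
        have hy0 : y ≠ 0 := fun h => by simp [h] at hy1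
        have := (smul_eq_zero.1 e.symm).resolve_right hy0
        exact (mul_ne_zero hs0 (sub_ne_zero.2 (fun h => hab (hca.trans h)))) this
      · refine hy.2.1 ?_
        by_cases hcb : c = b
        · rw [hcb, sub_self, mul_zero, zero_smul] at e
          have hv0 : v₀ ≠ 0 := fun h => by simp [h] at hv1
          exact absurd ((smul_eq_zero.1 e).resolve_right hv0) (sub_ne_zero.2 (hcb ▸ hca))
        have hy' : y = ((s * (c - b))⁻¹ * (a - c)) • v₀ := by
          rw [← smul_smul, e, smul_smul, inv_mul_cancel₀ (mul_ne_zero hs0 (sub_ne_zero.2 hcb)), one_smul]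
        rw [mem_ker_sub_smul, hy', map_smul, ha, smul_comm]
  · -- at most three field elements
    obtain ⟨v, hv1, hv⟩ := exists_avoid hu
      (if q = 2 then [(span F {l}).comap N] else [(span F {l}).comap N, ker (N - (1 : F) • 1)]) (by
        rw [hVc]
        split <;> simp only [List.map_cons, List.map_nil, List.sum_cons, List.sum_nil, add_zero]
        · nlinarith [Nat.mul_le_mul_right (q ^ (n - 2)) hq2, Nat.mul_le_mul_right (q ^ (n - 1)) hq2]
        · have := cK 1
          nlinarith [pow_pos (show 0 < q by omega) (n - 1),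
            Nat.mul_le_mul_right (q ^ (n - 2)) hq2, Nat.mul_le_mul_right (q ^ (n - 1)) hq2])
    have hv0 : v ≠ 0 := fun e => by simp [e] at hv1
    have hvB : v ∉ (span F {l}).comap N := hv _ (by split <;> simp)
    refine ⟨v, by rw [hv1]; exact one_ne_zero, hvB, fun ν h => ?_, fun h => absurd h noslot, hT v,
      fun a b c => (nosp a b c).elim⟩
    by_cases h0 : ν = 0
    · subst h0; exact hvB (mem_ker0 h)
    have h1 : ν ≠ -1 := notneg hv0 h
    have hcard : ({0, -1, ν} : Finset F).card = 3 := by
      rw [Finset.card_eq_three]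
      exact ⟨0, -1, ν, by simp, Ne.symm h0, Ne.symm h1, rfl⟩
    have hq3 : q = 3 := by
      have := hcard ▸ Finset.card_le_univ ({0, -1, ν} : Finset F)
      omega
    have huniv : ({0, -1, ν} : Finset F) = Finset.univ := Finset.eq_univ_of_card _ (by rw [hcard]; omega)
    have h1ν : ν = 1 := by
      have hm : (1 : F) ∈ ({0, -1, ν} : Finset F) := huniv ▸ Finset.mem_univ _
      simp only [Finset.mem_insert, one_ne_zero, false_or, Finset.mem_singleton] at hm
      rcases hm with e | e
      · exfalso
        -- in characteristic two there are no three-element fields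
        have h3 : ν + 1 ∈ ({0, -1, ν} : Finset F) := huniv ▸ Finset.mem_univ _
        simp only [Finset.mem_insert, Finset.mem_singleton] at h3
        rcases h3 with h3 | h3 | h3
        · exact h1 (eq_neg_of_add_eq_zero_left h3)
        · exact h0 (by linear_combination h3 - e)
        · simp at h3
      · exact e.symm
    exact hv (ker (N - (1 : F) • 1)) (by simp [hq3]) (mem_ker_sub_smul.2 (h1ν ▸ h))

end Cfsg.Agent.SLComm
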