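import Mathlib.LinearAlgebra.Dual.Lemmas
import Mathlib.FieldTheory.Finiteness

/-!
Covering bounds for finite vector spaces (owner: helper16): the affine hyperplane `u = 1` is not covered by
subspaces whose cardinalities add up to less than that of the whole space.
-/

set_option autoImplicit false

namespace Cfsg.Agent.SLComm

variable {F : Type*} [Field F] [Fintype F] {V : Type*} [AddCommGroup V] [Module F V] [Finite V]

omit [Fintype F] [Finite V] in
theorem exists_apply_eq_one {u : V →ₗ[F] F} (hu : u ≠ 0) : ∃ v : V, u v = 1 := by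
  obtain ⟨x, hx⟩ : ∃ x, u x ≠ 0 := by
    by_contra h
    push Not at h
    exact hu (LinearMap.ext fun x => by simp [h x])
  exact ⟨(u x)⁻¹ • x, by rw [map_smul, smul_eq_mul, inv_mul_cancel₀ hx]⟩

theorem card_fibre_mul_le (u : V →ₗ[F] F) (s : Submodule F V) :
    Nat.card {x : V // u x = 1 ∧ x ∈ s} * Fintype.card F ≤ Nat.card s := by
  rcases isEmpty_or_nonempty {x : V // u x = 1 ∧ x ∈ s} with h | ⟨⟨v0, hv0, hv0s⟩⟩
  · simp
  rw [← Nat.card_eq_fintype_card, ← Nat.card_prod]
  refine Nat.card_le_card_of_injective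
    (fun p => (⟨p.1.1 - v0 + p.2 • v0, s.add_mem (s.sub_mem p.1.2.2 hv0s) (s.smul_mem _ hv0s)⟩ : s)) ?_
  rintro ⟨⟨x, hx, hxs⟩, t⟩ ⟨⟨y, hy, hys⟩, t'⟩ h
  have h' : x - v0 + t • v0 = y - v0 + t' • v0 := congrArg Subtype.val h
  have ht : t = t' := by
    have := congrArg u h'
    simpa [hx, hy, hv0] using this
  subst ht
  have : x = y := by
    have := add_right_cancel h'
    exact sub_left_injective this
  subst this
  rfl

theorem card_le_fibre_mul {u : V →ₗ[F] F} (hu : u ≠ 0) :
    Nat.card V ≤ Nat.card {x : V // u x = 1} * Fintype.card F := by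
  obtain ⟨v0, hv0⟩ := exists_apply_eq_one hu
  rw [← Nat.card_eq_fintype_card, ← Nat.card_prod]
  refine Nat.card_le_card_of_injective
    (fun x => ((⟨x - u x • v0 + v0, by simp [hv0]⟩ : {x : V // u x = 1}), u x)) ?_
  intro x y h
  simp only [Prod.mk.injEq, Subtype.mk.injEq] at h
  obtain ⟨h1, h2⟩ := h
  rw [h2] at h1
  exact sub_left_injective (add_right_cancel h1)

/-- The affine hyperplane `u = 1` is not covered by small subspaces. -/
theorem exists_avoid {u : V →ₗ[F] F} (hu : u ≠ 0) (S : List (Submodule F V))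
    (h : (S.map fun s : Submodule F V => Nat.card s).sum < Nat.card V) :
    ∃ v : V, u v = 1 ∧ ∀ s ∈ S, v ∉ s := by
  classical
  by_contra hc
  push Not at hc
  have := Fintype.ofFinite V
  have key : ∀ T : List (Submodule F V),
      (Finset.univ.filter fun x : V => u x = 1 ∧ ∃ s ∈ T, x ∈ s).card * Fintype.card F
        ≤ (T.map fun s : Submodule F V => Nat.card s).sum := by
    intro T
    induction T with
    | nil => simp
    | cons s T ih =>
      have hsub : (Finset.univ.filter fun x : V => u x = 1 ∧ ∃ s' ∈ s :: T, x ∈ s') ⊆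
          (Finset.univ.filter fun x : V => u x = 1 ∧ x ∈ s) ∪
          (Finset.univ.filter fun x : V => u x = 1 ∧ ∃ s' ∈ T, x ∈ s') := by
        intro x hx
        simp only [Finset.mem_filter, Finset.mem_univ, true_and, List.mem_cons, exists_eq_or_imp,
          Finset.mem_union] at hx ⊢
        tauto
      have h1 := card_fibre_mul_le u s
      rw [Nat.card_eq_fintype_card (α := {x : V // u x = 1 ∧ x ∈ s}), Fintype.card_subtype] at h1
      rw [List.map_cons, List.sum_cons]
      calc _ ≤ _ := Nat.mul_le_mul_right _ ((Finset.card_le_card hsub).trans (Finset.card_union_le _ _))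
        _ = _ := Nat.add_mul _ _ _
        _ ≤ _ := Nat.add_le_add h1 ih
  have h2 := card_le_fibre_mul hu
  rw [Nat.card_eq_fintype_card (α := {x : V // u x = 1}), Fintype.card_subtype] at h2
  have h3 : (Finset.univ.filter fun x : V => u x = 1) ⊆
      Finset.univ.filter fun x : V => u x = 1 ∧ ∃ s ∈ S, x ∈ s := by
    intro x hx
    simp only [Finset.mem_filter, Finset.mem_univ, true_and] at hx ⊢
    exact ⟨hx, hc x hx⟩
  exact absurd (h2.trans ((Nat.mul_le_mul_right _ (Finset.card_le_card h3)).trans (key S))) (not_le.2 h)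

omit [Finite V] in
theorem card_submodule_le [Finite V] {s : Submodule F V} {d : ℕ} (h : Module.finrank F s ≤ d) :
    Nat.card s ≤ Fintype.card F ^ d := by
  rw [Module.natCard_eq_pow_finrank (K := F), Nat.card_eq_fintype_card]
  exact Nat.pow_le_pow_right Fintype.card_pos h

end Cfsg.Agent.SLComm
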