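import Mathlib.RingTheory.AdjoinRoot
import Mathlib.RingTheory.Norm.Basic
import Mathlib.LinearAlgebra.Determinant
import Mathlib.Tactic

/-!
Cyclic endomorphisms with a given polynomial, and the two triangular extensions by a line used in the
commutator recursion for `SL_n` (owner: helper16).
-/

set_option autoImplicit false

namespace Cfsg.Agent.SLComm

open Polynomial Module

variable {F : Type*} [Field F] {V : Type*} [AddCommGroup V] [Module F V]

/-- `L` is similar to multiplication by the root on `AdjoinRoot P`. -/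
def Cyc (L : V →ₗ[F] V) (P : F[X]) : Prop :=
  ∃ e : AdjoinRoot P ≃ₗ[F] V, ∀ x, e (AdjoinRoot.root P * x) = L (e x)

theorem aeval_mul_apply (L : V →ₗ[F] V) (p q : F[X]) (x : V) :
    aeval L (p * q) x = aeval L p (aeval L q x) := by rw [map_mul]; rfl

theorem aeval_X_sub_C_apply (L : V →ₗ[F] V) (c : F) (x : V) :
    aeval L (X - C c) x = L x - c • x := by simp

theorem cyc_of_vector [FiniteDimensional F V] {L : V →ₗ[F] V} {P : F[X]} (hP : P.Monic)
    (hd : P.natDegree = finrank F V) (hann : ∀ x, aeval L P x = 0) {z : V}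
    (hz : ∀ x, ∃ h : F[X], aeval L h z = x) : Cyc L P := by
  set φ : AdjoinRoot P →ₗ[F] V :=
    ((LinearMap.applyₗ z).comp (aeval L).toLinearMap).comp (AdjoinRoot.modByMonicHom hP) with hφ
  have hmk : ∀ h : F[X], φ (AdjoinRoot.mk P h) = aeval L h z := fun h => by
    show aeval L (AdjoinRoot.modByMonicHom hP (AdjoinRoot.mk P h)) z = _
    rw [AdjoinRoot.modByMonicHom_mk]
    conv_rhs => rw [← Polynomial.modByMonic_add_div h P]
    rw [map_add, LinearMap.add_apply, aeval_mul_apply, hann, add_zero]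
  have hsurj : Function.Surjective φ := fun x => by
    obtain ⟨h, rfl⟩ := hz x
    exact ⟨_, hmk h⟩
  haveI : FiniteDimensional F (AdjoinRoot P) := hP.finite_adjoinRoot
  have hdim : finrank F (AdjoinRoot P) = finrank F V := by
    rw [(AdjoinRoot.powerBasis' hP).finrank, AdjoinRoot.powerBasis'_dim, hd]
  refine ⟨LinearEquiv.ofBijective φ
    ⟨(LinearMap.injective_iff_surjective_of_finrank_eq_finrank hdim).2 hsurj, hsurj⟩, fun x => ?_⟩
  obtain ⟨h, rfl⟩ := AdjoinRoot.mk_surjective x
  show φ (AdjoinRoot.root P * AdjoinRoot.mk P h) = L (φ (AdjoinRoot.mk P h))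
  rw [← AdjoinRoot.mk_X, ← (AdjoinRoot.mk P).map_mul, hmk, hmk, aeval_mul_apply, aeval_X]

theorem Cyc.aeval_apply {L : V →ₗ[F] V} {P : F[X]} {e : AdjoinRoot P ≃ₗ[F] V}
    (he : ∀ x, e (AdjoinRoot.root P * x) = L (e x)) (h : F[X]) (x : AdjoinRoot P) :
    e (AdjoinRoot.mk P h * x) = aeval L h (e x) := by
  induction h using Polynomial.induction_on' generalizing x with
  | add p q hp hq => rw [map_add, add_mul, map_add, map_add, LinearMap.add_apply, hp, hq]
  | monomial n a =>
    induction n generalizing x with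
    | zero =>
      rw [monomial_zero_left, AdjoinRoot.mk_C, aeval_C, ← AdjoinRoot.algebraMap_eq, ← Algebra.smul_def,
        map_smul]
      rfl
    | succ n ih =>
      rw [← monomial_mul_X, (AdjoinRoot.mk P).map_mul, AdjoinRoot.mk_X, mul_assoc, ih, he, aeval_mul_apply,
        aeval_X]

/-- The data carried by `Cyc`. -/
theorem Cyc.exists_vector {L : V →ₗ[F] V} {P : F[X]} (hL : Cyc L P) :
    ∃ z : V, (∀ x, ∃ h : F[X], aeval L h z = x) ∧ (∀ h : F[X], aeval L h z = 0 → P ∣ h) ∧
      ∀ x, aeval L P x = 0 := by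
  obtain ⟨e, he⟩ := hL
  refine ⟨e 1, fun x => ?_, fun h hh => ?_, fun x => ?_⟩
  · obtain ⟨h, hh⟩ := AdjoinRoot.mk_surjective (e.symm x)
    exact ⟨h, by rw [← Cyc.aeval_apply he, mul_one, hh, e.apply_symm_apply]⟩
  · rw [← Cyc.aeval_apply he, mul_one, LinearEquiv.map_eq_zero_iff, AdjoinRoot.mk_eq_zero] at hh
    exact hh
  · obtain ⟨y, rfl⟩ := e.surjective x
    rw [← Cyc.aeval_apply he, AdjoinRoot.mk_self, zero_mul, map_zero]

theorem Cyc.similar {L M : V →ₗ[F] V} {P : F[X]} (hL : Cyc L P) (hM : Cyc M P) :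
    ∃ g : V ≃ₗ[F] V, ∀ x, g (L x) = M (g x) := by
  obtain ⟨e₁, h₁⟩ := hL
  obtain ⟨e₂, h₂⟩ := hM
  refine ⟨e₁.symm.trans e₂, fun x => ?_⟩
  obtain ⟨y, rfl⟩ := e₁.surjective x
  simp [← h₁, h₂]

theorem Cyc.conj {V' : Type*} [AddCommGroup V'] [Module F V'] {L : V →ₗ[F] V} {P : F[X]} (hL : Cyc L P)
    (σ : V ≃ₗ[F] V') {L' : V' →ₗ[F] V'} (h : ∀ x, L' (σ x) = σ (L x)) : Cyc L' P := by
  obtain ⟨e, he⟩ := hL
  exact ⟨e.trans σ, fun x => by simp [he, h]⟩

theorem Cyc.det {L : V →ₗ[F] V} {P : F[X]} (hP : P.Monic) (hL : Cyc L P) :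
    LinearMap.det L = (-1) ^ P.natDegree * P.coeff 0 := by
  obtain ⟨e, he⟩ := hL
  have hconj : L = (e : AdjoinRoot P →ₗ[F] V) ∘ₗ LinearMap.mulLeft F (AdjoinRoot.root P) ∘ₗ
      (e.symm : V →ₗ[F] AdjoinRoot P) := by
    ext x
    simp [he]
  haveI : Module.Finite F (AdjoinRoot P) := hP.finite_adjoinRoot
  rw [hconj, LinearMap.det_conj]
  have hnorm : Algebra.norm F (AdjoinRoot.root P) = (-1) ^ P.natDegree * P.coeff 0 := by
    have h := Algebra.PowerBasis.norm_gen_eq_coeff_zero_minpoly (AdjoinRoot.powerBasis hP.ne_zero)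
    rw [AdjoinRoot.powerBasis_gen, AdjoinRoot.powerBasis_dim, AdjoinRoot.minpoly_root hP.ne_zero,
      hP.leadingCoeff, inv_one, map_one, mul_one] at h
    exact h
  exact hnorm

theorem aeval_eigen {L : V →ₗ[F] V} {c : F} {x : V} (h : L x = c • x) (g : F[X]) :
    aeval L g x = g.eval c • x := by
  induction g using Polynomial.induction_on' with
  | add p q hp hq => simp [hp, hq, add_smul]
  | monomial n a =>
    induction n with
    | zero => simp [Module.algebraMap_end_apply]
    | succ n ih =>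
      rw [← monomial_mul_X, aeval_mul_apply, aeval_X, h, map_smul, ih, eval_mul, eval_X, smul_smul, mul_comm]

/-- The lower triangular extension of `L` by a line. -/
def low (c : F) (w : V) (L : V →ₗ[F] V) : F × V →ₗ[F] F × V :=
  LinearMap.prod (c • LinearMap.fst F F V) ((LinearMap.fst F F V).smulRight w + L.comp (LinearMap.snd F F V))

/-- The upper triangular extension of `L` by a line. -/
def upp (c : F) (ψ : V →ₗ[F] F) (L : V →ₗ[F] V) : F × V →ₗ[F] F × V :=
  LinearMap.prod (c • LinearMap.fst F F V + ψ.comp (LinearMap.snd F F V)) (L.comp (LinearMap.snd F F V))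

@[simp] theorem low_apply (c : F) (w : V) (L : V →ₗ[F] V) (p : F × V) :
    low c w L p = (c * p.1, p.1 • w + L p.2) := rfl

@[simp] theorem upp_apply (c : F) (ψ : V →ₗ[F] F) (L : V →ₗ[F] V) (p : F × V) :
    upp c ψ L p = (c * p.1 + ψ p.2, L p.2) := rfl

theorem aeval_low_snd (c : F) (w : V) (L : V →ₗ[F] V) (h : F[X]) (x : V) :
    aeval (low c w L) h ((0 : F), x) = (0, aeval L h x) := by
  induction h using Polynomial.induction_on' generalizing x with
  | add p q hp hq => simp [hp, hq]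
  | monomial n a =>
    induction n generalizing x with
    | zero => simp [Module.algebraMap_end_apply]
    | succ n ih =>
      rw [← monomial_mul_X, aeval_mul_apply, aeval_X, aeval_mul_apply, aeval_X, low_apply, mul_zero,
        zero_smul, zero_add, ih]

theorem aeval_upp_snd (c : F) (ψ : V →ₗ[F] F) (L : V →ₗ[F] V) (h : F[X]) (p : F × V) :
    (aeval (upp c ψ L) h p).2 = aeval L h p.2 := by
  induction h using Polynomial.induction_on' generalizing p with
  | add p q hp hq => simp [hp, hq]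
  | monomial n a =>
    induction n generalizing p with
    | zero => simp [Module.algebraMap_end_apply]
    | succ n ih =>
      rw [← monomial_mul_X, aeval_mul_apply, aeval_X, ih, aeval_mul_apply, aeval_X, upp_apply]

theorem aeval_upp_fst (c : F) (ψ : V →ₗ[F] F) (L : V →ₗ[F] V) (h : F[X]) (t : F) :
    aeval (upp c ψ L) h (t, (0 : V)) = (h.eval c * t, 0) := by
  induction h using Polynomial.induction_on' generalizing t with
  | add p q hp hq => simp [hp, hq, add_mul]
  | monomial n a =>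
    induction n generalizing t with
    | zero => simp [Module.algebraMap_end_apply]
    | succ n ih =>
      rw [← monomial_mul_X, aeval_mul_apply, aeval_X, upp_apply, map_zero, map_zero, add_zero, ih]
      simp [pow_succ, mul_assoc]

theorem finrank_prod_line [FiniteDimensional F V] : finrank F (F × V) = finrank F V + 1 := by
  rw [finrank_prod, finrank_self, add_comm]

/-- The lower extension is cyclic. -/
theorem cyc_low [FiniteDimensional F V] {c : F} {w : V} {L : V →ₗ[F] V} {P : F[X]} (hP : P.Monic)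
    (hd : P.natDegree = finrank F V) (hL : Cyc L P)
    (hw : P.eval c ≠ 0 ∨ w ∉ LinearMap.range (L - c • 1)) : Cyc (low c w L) ((X - C c) * P) := by
  obtain ⟨z₀, hgen, -, hann⟩ := hL.exists_vector
  obtain ⟨h, hh⟩ := hgen w
  -- a generator of the form `w + (L - c) y`
  obtain ⟨g, s, hg, a, b, hab⟩ : ∃ g s : F[X], g = h + (X - C c) * s ∧ IsCoprime g P := by
    by_cases hc : P.eval c = 0
    · obtain ⟨M, hM, hMc⟩ := P.exists_eq_pow_rootMultiplicity_mul_and_not_dvd hP.ne_zero c
      have hMc' : M.eval c ≠ 0 := fun e => hMc (dvd_iff_isRoot.2 e)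
      have hhc : h.eval c ≠ 0 := fun e => by
        obtain ⟨h', rfl⟩ := dvd_iff_isRoot.2 (show h.IsRoot c from e)
        refine (hw.resolve_left fun e => e hc) ⟨aeval L h' z₀, ?_⟩
        rw [← hh, aeval_mul_apply, aeval_X_sub_C_apply]
        simp
      set g := 1 + C ((h.eval c - 1) / M.eval c) * M with hgdef
      have hgc : g.eval c = h.eval c := by
        rw [hgdef, eval_add, eval_one, eval_mul, eval_C, div_mul_cancel₀ _ hMc']
        ring
      obtain ⟨s, hs⟩ : (X - C c) ∣ g - h := dvd_iff_isRoot.2 (by simp [IsRoot, hgc])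
      refine ⟨g, s, by rw [← hs]; ring, ?_⟩
      rw [hM]
      refine IsCoprime.mul_right (IsCoprime.pow_right ?_) ?_
      · exact ((irreducible_X_sub_C c).coprime_iff_not_dvd.2 fun e => hhc (by
          rw [← hgc]; exact dvd_iff_isRoot.1 e)).symm
      · exact ⟨1, -C ((h.eval c - 1) / M.eval c), by rw [hgdef]; ring⟩
    · obtain ⟨a, b, hab⟩ := (irreducible_X_sub_C c).coprime_iff_not_dvd.2
        fun e => hc (dvd_iff_isRoot.1 e)
      refine ⟨1 + (h - 1) * b * P, (1 - h) * a, ?_, 1, -((h - 1) * b), by ring⟩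
      linear_combination (h - 1) * hab
  have hz : ∀ x, ∃ h' : F[X], aeval L h' (aeval L g z₀) = x := fun x => by
    obtain ⟨h', hh'⟩ := hgen x
    refine ⟨h' * a, ?_⟩
    have : h' = h' * a * g + (h' * b) * P := by linear_combination -h' * hab
    rw [← hh', ← aeval_mul_apply]
    conv_rhs => rw [this]
    rw [map_add, LinearMap.add_apply, aeval_mul_apply L (h' * b) P, hann, map_zero, add_zero]
  have hPd : ((X - C c) * P).natDegree = finrank F (F × V) := by
    rw [(monic_X_sub_C c).natDegree_mul hP, natDegree_X_sub_C, hd, finrank_prod_line, add_comm]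
  refine cyc_of_vector ((monic_X_sub_C c).mul hP) hPd ?_ (z := ((1 : F), aeval L s z₀)) ?_
  · rintro ⟨t, x⟩
    rw [mul_comm, aeval_mul_apply, aeval_X_sub_C_apply, low_apply, Prod.smul_mk, Prod.mk_sub_mk,
      smul_eq_mul, sub_self, aeval_low_snd, hann]
    rfl
  · rintro ⟨t, x⟩
    obtain ⟨h', hh'⟩ := hz (x - t • aeval L s z₀)
    refine ⟨C t + h' * (X - C c), ?_⟩
    rw [map_add, LinearMap.add_apply, aeval_mul_apply, aeval_X_sub_C_apply, low_apply, Prod.smul_mk,
      Prod.mk_sub_mk, smul_eq_mul, sub_self, one_smul, aeval_low_snd]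
    have e : w + L (aeval L s z₀) - c • aeval L s z₀ = aeval L g z₀ := by
      rw [hg, map_add, LinearMap.add_apply, aeval_mul_apply, aeval_X_sub_C_apply, hh]
      abel
    rw [e, hh', aeval_C, Module.algebraMap_end_apply, Prod.smul_mk, Prod.mk_add_mk, smul_eq_mul, mul_one,
      add_zero, add_sub_cancel]

/-- The upper extension is cyclic. -/
theorem cyc_upp [FiniteDimensional F V] {c : F} {ψ : V →ₗ[F] F} {L : V →ₗ[F] V} {P : F[X]} (hP : P.Monic)
    (hd : P.natDegree = finrank F V) (hL : Cyc L P)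
    (hw : P.eval c ≠ 0 ∨ ∃ e, L e = c • e ∧ ψ e ≠ 0) : Cyc (upp c ψ L) ((X - C c) * P) := by
  obtain ⟨z₀, hgen, hdvd, hann⟩ := hL.exists_vector
  have hPd : ((X - C c) * P).natDegree = finrank F (F × V) := by
    rw [(monic_X_sub_C c).natDegree_mul hP, natDegree_X_sub_C, hd, finrank_prod_line, add_comm]
  -- a vector whose `P` image is a nonzero multiple of `(1, 0)`
  obtain ⟨x₀, hx₀, κ, hκ, hκP⟩ : ∃ x₀ : F × V, x₀.2 = z₀ ∧ ∃ κ : F, κ ≠ 0 ∧
      aeval (upp c ψ L) P x₀ = (κ, 0) := by
    have h2 : ∀ p : F × V, (aeval (upp c ψ L) P p).2 = 0 := fun p => by rw [aeval_upp_snd, hann]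
    by_cases hc : P.eval c = 0
    · obtain ⟨M, hM⟩ := dvd_iff_isRoot.2 (show P.IsRoot c from hc)
      obtain ⟨e, he, hψ⟩ := hw.resolve_left fun e => e hc
      obtain ⟨g, hg⟩ := hgen e
      have h1 : P ∣ (X - C c) * g := hdvd _ (by rw [aeval_mul_apply, hg, aeval_X_sub_C_apply, he, sub_self])
      rw [hM] at h1
      obtain ⟨g', rfl⟩ := (mul_dvd_mul_iff_left (X_sub_C_ne_zero c)).1 h1
      have he0 : L (aeval L M z₀) = c • aeval L M z₀ := sub_eq_zero.1 (by
        rw [← aeval_X_sub_C_apply, ← aeval_mul_apply, ← hM, hann])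
      have heq : e = g'.eval c • aeval L M z₀ := by
        rw [← hg, mul_comm, aeval_mul_apply]
        exact aeval_eigen he0 g'
      have hψM : ψ (aeval L M z₀) ≠ 0 := fun e' => hψ (by rw [heq, map_smul, e', smul_zero])
      refine ⟨(0, z₀), rfl, ψ (aeval L M z₀), hψM, Prod.ext ?_ (h2 _)⟩
      rw [hM, aeval_mul_apply, aeval_X_sub_C_apply]
      have hsnd := aeval_upp_snd c ψ L M ((0 : F), z₀)
      simp only [Prod.fst_sub, upp_apply, Prod.smul_fst, smul_eq_mul]
      rw [hsnd]
      ring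
    · refine ⟨((1 - (aeval (upp c ψ L) P ((0 : F), z₀)).1) / P.eval c, z₀), rfl, 1, one_ne_zero,
        Prod.ext ?_ (h2 _)⟩
      rw [show ((1 - (aeval (upp c ψ L) P ((0 : F), z₀)).1) / P.eval c, z₀) =
        (((1 - (aeval (upp c ψ L) P ((0 : F), z₀)).1) / P.eval c, (0 : V)) + ((0 : F), z₀)) by simp,
        map_add, aeval_upp_fst, Prod.fst_add, mul_div_cancel₀ _ hc, sub_add_cancel]
  refine cyc_of_vector ((monic_X_sub_C c).mul hP) hPd ?_ (z := x₀) ?_
  · intro p
    rw [aeval_mul_apply, aeval_X_sub_C_apply]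
    have h2 : (aeval (upp c ψ L) P p).2 = 0 := by rw [aeval_upp_snd, hann]
    rw [upp_apply, h2, map_zero, map_zero, add_zero]
    refine Prod.ext ?_ ?_
    · simp
    · simp [h2]
  · rintro ⟨t, x⟩
    obtain ⟨h, hh⟩ := hgen x
    refine ⟨h + C ((t - (aeval (upp c ψ L) h x₀).1) / κ) * P, ?_⟩
    rw [map_add, LinearMap.add_apply, aeval_mul_apply, hκP, aeval_C, Module.algebraMap_end_apply]
    refine Prod.ext ?_ ?_
    · simp only [Prod.fst_add, Prod.smul_fst, smul_eq_mul]
      rw [div_mul_cancel₀ _ hκ]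
      ring
    · simp only [Prod.snd_add, Prod.smul_snd, smul_zero, add_zero]
      rw [aeval_upp_snd, hx₀, hh]

end Cfsg.Agent.SLComm
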