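import Cfsg.Agent.SLComm.Cyclic
import Mathlib.LinearAlgebra.Matrix.Block
import Mathlib.LinearAlgebra.Matrix.ToLin
import Mathlib.FieldTheory.Finite.GaloisField

/-!
Splitting off a line: determinants, the coordinate change, and determinant adjustment in the centraliser of a
cyclic map (owner: helper16).
-/

set_option autoImplicit false

namespace Cfsg.Agent.SLComm

open Polynomial Module

variable {F : Type*} [Field F] {V : Type*} [AddCommGroup V] [Module F V] [FiniteDimensional F V]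

theorem det_low (c : F) (w : V) (L : V →ₗ[F] V) :
    LinearMap.det (low c w L) = c * LinearMap.det L := by
  classical
  set b := (Basis.singleton Unit F).prod (finBasis F V)
  have hM : LinearMap.toMatrix b b (low c w L) = Matrix.fromBlocks (c • 1) 0
      (Matrix.of fun i _ => (finBasis F V).repr w i) (LinearMap.toMatrix (finBasis F V) (finBasis F V) L) := by
    ext i j
    rcases i with i | i <;> rcases j with j | j <;>
      simp [b, LinearMap.toMatrix_apply, Basis.prod_apply]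
  rw [← LinearMap.det_toMatrix b, hM, Matrix.det_fromBlocks_zero₁₂, LinearMap.det_toMatrix]
  simp

theorem det_upp (c : F) (ψ : V →ₗ[F] F) (L : V →ₗ[F] V) :
    LinearMap.det (upp c ψ L) = c * LinearMap.det L := by
  classical
  set b := (Basis.singleton Unit F).prod (finBasis F V)
  have hM : LinearMap.toMatrix b b (upp c ψ L) = Matrix.fromBlocks (c • 1)
      (Matrix.of fun _ j => ψ (finBasis F V j)) 0 (LinearMap.toMatrix (finBasis F V) (finBasis F V) L) := by
    ext i j
    rcases i with i | i <;> rcases j with j | j <;>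
      simp [b, LinearMap.toMatrix_apply, Basis.prod_apply]
  rw [← LinearMap.det_toMatrix b, hM, Matrix.det_fromBlocks_zero₂₁, LinearMap.det_toMatrix]
  simp

/-- Coordinates with respect to a line and a complementary kernel. -/
def split (v : V) (f : V →ₗ[F] F) (hfv : f v = 1) : (F × ↥(LinearMap.ker f)) ≃ₗ[F] V where
  toFun p := p.1 • v + (p.2 : V)
  map_add' p q := by simp [add_smul]; abel
  map_smul' a p := by simp [smul_smul]
  invFun x := (f x, ⟨x - f x • v, by simp [hfv]⟩)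
  left_inv p := by
    have h : f ((p.2 : V)) = 0 := p.2.2
    refine Prod.ext ?_ (Subtype.ext ?_)
    · simp [h, hfv]
    · simp [h, hfv]
  right_inv x := by simp

omit [FiniteDimensional F V] in
@[simp] theorem split_apply (v : V) (f : V →ₗ[F] F) (hfv : f v = 1) (p : F × ↥(LinearMap.ker f)) :
    split v f hfv p = p.1 • v + (p.2 : V) := rfl

theorem det_transv {φ : V →ₗ[F] F} {y : V} (hy : φ y = 0) :
    LinearMap.det (1 + φ.smulRight y) = (1 : F) := by
  by_cases hφ : φ = 0
  · simp [hφ]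
  obtain ⟨x, hx⟩ : ∃ x, φ x ≠ 0 := by
    by_contra h
    push Not at h
    exact hφ (LinearMap.ext fun x => by simp [h x])
  set v := (φ x)⁻¹ • x
  have hv : φ v = 1 := by simp [v, hx]
  set σ := split v φ hv
  have he : 1 + φ.smulRight y = (σ : _ →ₗ[F] V) ∘ₗ low 1 ⟨y, hy⟩ (1 : ↥(LinearMap.ker φ) →ₗ[F] _) ∘ₗ
      (σ.symm : V →ₗ[F] _) := by
    refine LinearMap.ext fun z => ?_
    obtain ⟨p, rfl⟩ := σ.surjective z
    simp only [LinearMap.coe_comp, Function.comp_apply, LinearEquiv.coe_coe, LinearEquiv.symm_apply_apply]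
    simp [σ, hv, show φ ((p.2 : V)) = 0 from p.2.2]
    abel
  rw [he, LinearMap.det_conj, det_low, one_mul]
  simp

/-- In the centraliser of a cyclic map with a coprime factor `p` every norm from `F[X]/(p)` is a
determinant. -/
theorem exists_centralizer_det {L : V →ₗ[F] V} {P₀ p : F[X]} (hP₀ : P₀.Monic) (hp : p.Monic)
    (hco : IsCoprime P₀ p) (hL : Cyc L (P₀ * p)) {t : F} (ht : t ≠ 0) {ω : F[X]}
    (htd : Algebra.norm F (AdjoinRoot.mk p ω) = t) :
    ∃ Z : V ≃ₗ[F] V, (∀ x, Z (L x) = L (Z x)) ∧ LinearMap.det (Z : V →ₗ[F] V) = t := by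
  classical
  obtain ⟨e, he⟩ := hL
  have hP := hP₀.mul hp
  haveI : Module.Finite F (AdjoinRoot (P₀ * p)) := hP.finite_adjoinRoot
  haveI : Module.Finite F (AdjoinRoot P₀) := hP₀.finite_adjoinRoot
  haveI : Module.Finite F (AdjoinRoot p) := hp.finite_adjoinRoot
  set r := AdjoinRoot.modByMonicHom hP
  set κ : AdjoinRoot (P₀ * p) →ₗ[F] AdjoinRoot P₀ × AdjoinRoot p :=
    LinearMap.prod ((AdjoinRoot.mkₐ P₀).toLinearMap.comp r) ((AdjoinRoot.mkₐ p).toLinearMap.comp r)
  have hκ : ∀ h : F[X], κ (AdjoinRoot.mk (P₀ * p) h) = (AdjoinRoot.mk P₀ h, AdjoinRoot.mk p h) := fun h => by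
    have e1 : r (AdjoinRoot.mk (P₀ * p) h) - h = (P₀ * p) * -(h /ₘ (P₀ * p)) := by
      rw [AdjoinRoot.modByMonicHom_mk]
      linear_combination Polynomial.modByMonic_add_div h (P₀ * p)
    refine Prod.ext ?_ ?_
    · show AdjoinRoot.mk P₀ _ = _
      rw [AdjoinRoot.mk_eq_mk, e1, mul_assoc]
      exact dvd_mul_right _ _
    · show AdjoinRoot.mk p _ = _
      rw [AdjoinRoot.mk_eq_mk, e1, mul_comm P₀, mul_assoc]
      exact dvd_mul_right _ _
  have hinj : Function.Injective κ := by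
    rw [← LinearMap.ker_eq_bot, Submodule.eq_bot_iff]
    intro x hx
    obtain ⟨h, rfl⟩ := AdjoinRoot.mk_surjective x
    rw [LinearMap.mem_ker, hκ, Prod.mk_eq_zero, AdjoinRoot.mk_eq_zero, AdjoinRoot.mk_eq_zero] at hx
    exact AdjoinRoot.mk_eq_zero.2 (hco.mul_dvd hx.1 hx.2)
  have hdim : finrank F (AdjoinRoot (P₀ * p)) = finrank F (AdjoinRoot P₀ × AdjoinRoot p) := by
    rw [finrank_prod, (AdjoinRoot.powerBasis' hP).finrank, (AdjoinRoot.powerBasis' hP₀).finrank,
      (AdjoinRoot.powerBasis' hp).finrank, AdjoinRoot.powerBasis'_dim, AdjoinRoot.powerBasis'_dim,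
      AdjoinRoot.powerBasis'_dim, hP₀.natDegree_mul hp]
  set κe := LinearEquiv.ofBijective κ
    ⟨hinj, (LinearMap.injective_iff_surjective_of_finrank_eq_finrank hdim).1 hinj⟩
  obtain ⟨a, b, hab⟩ := hco
  set s := AdjoinRoot.mk (P₀ * p) (b * p + ω * (a * P₀))
  have hs : LinearMap.mulLeft F s = (κe.symm : _ →ₗ[F] AdjoinRoot (P₀ * p)) ∘ₗ
      LinearMap.prodMap (1 : AdjoinRoot P₀ →ₗ[F] AdjoinRoot P₀) (LinearMap.mulLeft F (AdjoinRoot.mk p ω)) ∘ₗ
      (κe : AdjoinRoot (P₀ * p) →ₗ[F] _) := by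
    refine LinearMap.ext fun x => κe.injective ?_
    obtain ⟨h, rfl⟩ := AdjoinRoot.mk_surjective x
    simp only [LinearMap.coe_comp, Function.comp_apply, LinearEquiv.coe_coe, LinearEquiv.apply_symm_apply,
      LinearMap.mulLeft_apply]
    show κ (s * AdjoinRoot.mk (P₀ * p) h) = LinearMap.prodMap _ _ (κ (AdjoinRoot.mk (P₀ * p) h))
    rw [← (AdjoinRoot.mk (P₀ * p)).map_mul, hκ, hκ, LinearMap.prodMap_apply]
    refine Prod.ext ?_ ?_
    · show AdjoinRoot.mk P₀ _ = AdjoinRoot.mk P₀ h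
      rw [AdjoinRoot.mk_eq_mk]
      exact ⟨(ω - 1) * a * h, by linear_combination h * hab⟩
    · show AdjoinRoot.mk p _ = AdjoinRoot.mk p ω * AdjoinRoot.mk p h
      rw [← (AdjoinRoot.mk p).map_mul, AdjoinRoot.mk_eq_mk]
      exact ⟨(1 - ω) * b * h, by linear_combination ω * h * hab⟩
  set Z₀ : V →ₗ[F] V := (e : _ →ₗ[F] V) ∘ₗ LinearMap.mulLeft F s ∘ₗ (e.symm : V →ₗ[F] _)
  have hd : LinearMap.det Z₀ = t := by
    have h2 := LinearMap.det_conj
      (LinearMap.prodMap (1 : AdjoinRoot P₀ →ₗ[F] AdjoinRoot P₀) (LinearMap.mulLeft F (AdjoinRoot.mk p ω)))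
      κe.symm
    rw [LinearEquiv.symm_symm] at h2
    rw [LinearMap.det_conj, hs, h2, LinearMap.det_prodMap, map_one, one_mul]
    exact htd
  refine ⟨LinearMap.equivOfDetNeZero Z₀ (by rw [hd]; exact ht), fun x => ?_, hd⟩
  obtain ⟨y, rfl⟩ := e.surjective x
  show Z₀ (L (e y)) = L (Z₀ (e y))
  simp only [Z₀, LinearMap.coe_comp, Function.comp_apply, LinearEquiv.coe_coe, LinearEquiv.symm_apply_apply,
    LinearMap.mulLeft_apply, ← he]
  rw [mul_left_comm]

omit [FiniteDimensional F V] in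
/-- The norm of a constant. -/
theorem norm_C {p : F[X]} (hp : p.Monic) (t : F) :
    Algebra.norm F (AdjoinRoot.mk p (C t)) = t ^ p.natDegree := by
  haveI : Module.Finite F (AdjoinRoot p) := hp.finite_adjoinRoot
  rw [AdjoinRoot.mk_C, ← AdjoinRoot.algebraMap_eq, Algebra.norm_algebraMap, (AdjoinRoot.powerBasis' hp).finrank,
    AdjoinRoot.powerBasis'_dim]

omit [FiniteDimensional F V] in
/-- Over a finite field every element is a norm from an irreducible quotient. -/
theorem exists_norm_eq [Finite F] {p : F[X]} (hp : p.Monic) (hirr : Irreducible p) (t : F) :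
    ∃ ω : F[X], Algebra.norm F (AdjoinRoot.mk p ω) = t := by
  haveI : Fact (Irreducible p) := ⟨hirr⟩
  haveI : Module.Finite F (AdjoinRoot p) := hp.finite_adjoinRoot
  haveI : Finite (AdjoinRoot p) := Module.finite_of_finite F
  obtain ⟨x, hx⟩ := FiniteField.norm_surjective F (AdjoinRoot p) t
  obtain ⟨ω, rfl⟩ := AdjoinRoot.mk_surjective x
  exact ⟨ω, hx⟩

end Cfsg.Agent.SLComm
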