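import Cfsg.Agent.SLComm.Glue
import Mathlib.FieldTheory.Separable
import Mathlib.GroupTheory.OrderOfElement

/-!
Scalar matrices of determinant one are commutators (owner: helper16).
-/

set_option autoImplicit false

namespace Cfsg.Agent.SLComm

open Polynomial Module

variable {F : Type*} [Field F]

/-- `A X L = L X` for some `X`, `L` of determinant one. -/
def CommRel {V : Type*} [AddCommGroup V] [Module F V] (A : V →ₗ[F] V) : Prop :=
  ∃ L X : V →ₗ[F] V, LinearMap.det L = 1 ∧ LinearMap.det X = 1 ∧ A ∘ₗ X ∘ₗ L = L ∘ₗ X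

theorem CommRel.conj {V W : Type*} [AddCommGroup V] [Module F V] [AddCommGroup W] [Module F W]
    {A : V →ₗ[F] V} (h : CommRel A) (σ : V ≃ₗ[F] W) {B : W →ₗ[F] W} (hB : ∀ x, B (σ x) = σ (A x)) :
    CommRel B := by
  obtain ⟨L, X, hL, hX, h⟩ := h
  refine ⟨(σ : V →ₗ[F] W) ∘ₗ L ∘ₗ (σ.symm : W →ₗ[F] V), (σ : V →ₗ[F] W) ∘ₗ X ∘ₗ (σ.symm : W →ₗ[F] V),
    by rw [LinearMap.det_conj, hL], by rw [LinearMap.det_conj, hX], LinearMap.ext fun y => ?_⟩
  obtain ⟨x, rfl⟩ := σ.surjective y
  simpa [hB] using congrArg σ (LinearMap.congr_fun h x)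

theorem CommRel.prod {V W : Type*} [AddCommGroup V] [Module F V] [FiniteDimensional F V] [AddCommGroup W]
    [Module F W] [FiniteDimensional F W] {A : V →ₗ[F] V} {B : W →ₗ[F] W} (hA : CommRel A) (hB : CommRel B) :
    CommRel (LinearMap.prodMap A B) := by
  obtain ⟨L, X, hL, hX, h⟩ := hA
  obtain ⟨L', X', hL', hX', h'⟩ := hB
  refine ⟨LinearMap.prodMap L L', LinearMap.prodMap X X', by rw [LinearMap.det_prodMap, hL, hL', one_mul],
    by rw [LinearMap.det_prodMap, hX, hX', one_mul], LinearMap.ext fun p => ?_⟩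
  have h1 := LinearMap.congr_fun h p.1
  have h2 := LinearMap.congr_fun h' p.2
  simp at h1 h2 ⊢
  exact ⟨h1, h2⟩

variable [Finite F]

/-- A primitive block. -/
theorem commRel_block {ζ : F} {d : ℕ} (hζ : IsPrimitiveRoot ζ d) (hd : 0 < d) :
    ∃ (P : F[X]), P.natDegree = d ∧ P.Monic ∧ CommRel (ζ • (1 : AdjoinRoot P →ₗ[F] AdjoinRoot P)) := by
  classical
  haveI := Fintype.ofFinite F
  have hd0 : (d : F) ≠ 0 := by
    have hdvd : d ∣ Fintype.card F - 1 := hζ.dvd_of_pow_eq_one _ (FiniteField.pow_card_sub_one_eq_one ζ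
      (hζ.ne_zero (by omega)))
    obtain ⟨k, hk⟩ := hdvd
    have h2 : Fintype.card F = d * k + 1 := by have := Fintype.card_pos (α := F); omega
    intro h
    have := congrArg (fun n : ℕ => (n : F)) h2
    rw [FiniteField.cast_card_eq_zero] at this
    push_cast at this
    rw [h, zero_mul, zero_add] at this
    exact zero_ne_one this
  set c : F := (-1) ^ (d + 1)
  have hc : c ≠ 0 := pow_ne_zero _ (by simp)
  set P : F[X] := X ^ d - C c with hPdef
  have hP : P.Monic := monic_X_pow_sub_C c (by omega)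
  have hPd : P.natDegree = d := natDegree_X_pow_sub_C
  refine ⟨P, hPd, hP, ?_⟩
  haveI : Module.Finite F (AdjoinRoot P) := hP.finite_adjoinRoot
  set X₀ : AdjoinRoot P →ₗ[F] AdjoinRoot P := LinearMap.mulLeft F (AdjoinRoot.root P)
  have hcyc : Cyc X₀ P := ⟨LinearEquiv.refl F _, fun x => rfl⟩
  have hX : LinearMap.det X₀ = 1 := by
    rw [hcyc.det hP, hPd, hPdef, coeff_sub, coeff_X_pow, if_neg (by omega), coeff_C_zero, zero_sub]
    simp only [c]
    rw [mul_neg, ← pow_add, show d + (d + 1) = 2 * d + 1 by omega, pow_succ, pow_mul]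
    simp
  -- the endomorphism multiplying the root by `ζ`
  have hev : aeval (ζ • AdjoinRoot.root P) P = 0 := by
    have h0 : aeval (AdjoinRoot.root P) P = 0 := by rw [AdjoinRoot.aeval_eq, AdjoinRoot.mk_self]
    simp only [hPdef, map_sub, map_pow, aeval_X, aeval_C] at h0 ⊢
    rw [smul_pow, hζ.pow_eq_one, one_smul]
    exact h0
  set D : AdjoinRoot P →ₐ[F] AdjoinRoot P :=
    AdjoinRoot.liftAlgHom P (Algebra.ofId F (AdjoinRoot P)) (ζ • AdjoinRoot.root P) hev with hD
  have hDr : D (AdjoinRoot.root P) = ζ • AdjoinRoot.root P := by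
    rw [hD]; exact AdjoinRoot.liftAlgHom_root ..
  have hDpow : ∀ k, (D ^ k) (AdjoinRoot.root P) = ζ ^ k • AdjoinRoot.root P := by
    intro k
    induction k with
    | zero => simp
    | succ k ih => rw [pow_succ', AlgHom.mul_apply, ih, map_smul, hDr, smul_smul, pow_succ]
  have hDd : D ^ d = 1 := AdjoinRoot.algHom_ext (by rw [hDpow, hζ.pow_eq_one, one_smul]; rfl)
  set δ := LinearMap.det D.toLinearMap with hδ
  have hδ0 : δ ≠ 0 := by
    intro h
    have hinj : Function.Injective D := fun a b e => by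
      have := congrArg (D ^ (d - 1)) e
      rwa [← AlgHom.mul_apply, ← AlgHom.mul_apply, ← pow_succ, Nat.sub_add_cancel hd, hDd] at this
    have hu : IsUnit (LinearMap.det D.toLinearMap) := LinearMap.isUnit_det _ (by
      rw [Module.End.isUnit_iff]
      exact ⟨hinj, LinearMap.surjective_of_injective (f := D.toLinearMap) hinj⟩)
    exact hu.ne_zero h
  obtain ⟨h, hm, hh, hdvd⟩ := exists_monic_irreducible_factor P (fun hu => by
    have := natDegree_eq_zero_of_isUnit hu; omega)
  obtain ⟨rest, hrest⟩ := hdvd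
  have hsep : P.Separable := separable_X_pow_sub_C c hd0 hc
  have hco : IsCoprime rest h := by
    rw [hrest] at hsep
    exact (Polynomial.Separable.isCoprime hsep).symm
  have hrm : rest.Monic := hm.of_mul_monic_left (hrest ▸ hP)
  obtain ⟨ω, hω⟩ := exists_norm_eq hm hh δ⁻¹
  obtain ⟨Z, hZ, hZd⟩ := exists_centralizer_det (L := X₀) hrm hm hco (by rwa [mul_comm, ← hrest])
    (inv_ne_zero hδ0) hω
  refine ⟨D.toLinearMap ∘ₗ (Z : _ →ₗ[F] AdjoinRoot P), X₀, ?_, hX, LinearMap.ext fun x => ?_⟩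
  · rw [LinearMap.det_comp, hZd, ← hδ, mul_inv_cancel₀ hδ0]
  · show ζ • (AdjoinRoot.root P * D (Z x)) = D (Z (X₀ x))
    rw [hZ x]
    show _ = D (AdjoinRoot.root P * Z x)
    rw [map_mul, hDr, smul_mul_assoc]

/-- Scalars of determinant one. -/
theorem commRel_scalar {ζ : F} {V : Type*} [AddCommGroup V] [Module F V] [FiniteDimensional F V]
    (hζ : ζ ^ finrank F V = 1) : CommRel (ζ • (1 : V →ₗ[F] V)) := by
  rcases Nat.eq_zero_or_pos (finrank F V) with h0 | hpos
  · haveI : Subsingleton V := Module.finrank_zero_iff.1 h0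
    exact ⟨1, 1, by simp, by simp, LinearMap.ext fun x => Subsingleton.elim _ _⟩
  have hfin : IsOfFinOrder ζ := isOfFinOrder_iff_pow_eq_one.2 ⟨_, hpos, hζ⟩
  obtain ⟨P, hPd, hP, hrel⟩ := commRel_block (IsPrimitiveRoot.orderOf ζ) hfin.orderOf_pos
  haveI : Module.Finite F (AdjoinRoot P) := hP.finite_adjoinRoot
  obtain ⟨m, hm⟩ := orderOf_dvd_of_pow_eq_one hζ
  -- copies of the block
  have key : ∀ m : ℕ, CommRel (ζ • (1 : (Fin m → AdjoinRoot P) →ₗ[F] Fin m → AdjoinRoot P)) := by
    intro m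
    induction m with
    | zero => exact ⟨1, 1, by simp, by simp, LinearMap.ext fun x => Subsingleton.elim _ _⟩
    | succ m ih =>
      refine (hrel.prod ih).conj
        ((Fin.consLinearEquiv F fun _ : Fin (m + 1) => AdjoinRoot P)) fun x => ?_
      refine funext fun i => ?_
      refine Fin.cases ?_ (fun j => ?_) i <;> simp
  refine (key m).conj (LinearEquiv.ofFinrankEq _ _ ?_) fun x => by simp
  rw [Module.finrank_pi_fintype, Finset.sum_const, Finset.card_fin, (AdjoinRoot.powerBasis' hP).finrank,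
    AdjoinRoot.powerBasis'_dim, hPd, smul_eq_mul, hm, mul_comm]

end Cfsg.Agent.SLComm
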